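import Cfsg.Agent.Blocks.NormalDefectThree.Main
import Cfsg.Agent.S4434
import Cfsg.Agent.S0972
import Cfsg.Agent.PGroup.Frattini
import Cfsg.Agent.Frobenius57.ElementOrder
import Cfsg.Agent.Blocks.Orth.DegreeSquares
import Cfsg.Agent.Blocks.Subsection.Major

/-!
# Three height zero characters over a normal defect group

`isCyclic_of_height_zero_le_three`: a block with normal defect group and at most three characters
of height zero has cyclic defect group.
-/

set_option autoImplicit false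
set_option linter.style.haveILetI false
open Cfsg CfsgLib CfsgLib.Blocks CfsgLib.Blocks.HeightZero

namespace CfsgLib.Blocks.NormalDefectThree

universe u

variable {G : Type u} [Group G] [Finite G] {p : ℕ} [Fact p.Prime] {M : Ideal AlgInt}

/-- Two or three odd squares: the defect is at most one. -/
theorem defect_le_one_of_two {B : Set (IrrCharacter G)} (hM : IsPModular 2 M)
    (hB : IsPBlock M B) (hall : ∀ χ ∈ B, blockHeight 2 B (χ : G → ℂ) = 0)
    (hk : Nat.card B ≤ 3) : blockDefect 2 B ≤ 1 := by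
  classical
  haveI := hM.2.1
  haveI := Fintype.ofFinite G
  obtain ⟨hne, hfac⟩ := factorization_sum_degree_sq hM hB
  set S := B.toFinite.toFinset
  set m := minExp 2 B
  have hodd : ∀ χ ∈ S, ∃ o : ℕ, ¬ 2 ∣ o ∧ charDegree (χ : G → ℂ) = 2 ^ m * o := fun χ hχ => by
    have hχB := B.toFinite.mem_toFinset.1 hχ
    have h := (blockHeight_eq_zero_iff' hχB).1 (hall χ hχB)
    exact ⟨_, Nat.not_dvd_ordCompl Nat.prime_two (Chars.charDegree_pos χ).ne', by
      simp only [m]; rw [← h]; exact (Nat.ordProj_mul_ordCompl_eq_self _ _).symm⟩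
  choose o ho ho' using hodd
  have hsum : ∑ χ ∈ S, charDegree (χ : G → ℂ) ^ 2 =
      2 ^ (2 * m) * ∑ χ ∈ S.attach, o χ.1 χ.2 ^ 2 := by
    rw [Finset.mul_sum, ← Finset.sum_attach]
    refine Finset.sum_congr rfl fun χ _ => ?_
    rw [ho' χ.1 χ.2, mul_pow, ← pow_mul, mul_comm m 2]
  set Q := ∑ χ ∈ S.attach, o χ.1 χ.2 ^ 2 with hQ
  have hmod : Q % 4 = S.card % 4 := by
    rw [hQ, Finset.sum_nat_mod, Finset.sum_congr rfl fun χ _ => show o χ.1 χ.2 ^ 2 % 4 = 1 by
      obtain ⟨c, hc⟩ : ∃ c, o χ.1 χ.2 = 2 * c + 1 := ⟨o χ.1 χ.2 / 2, by have := ho χ.1 χ.2; omega⟩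
      rw [hc, show (2 * c + 1) ^ 2 = 4 * (c * c + c) + 1 by ring]; omega]
    simp
  have hcard : S.card = Nat.card B := by
    rw [Nat.card_coe_set_eq, Set.ncard_eq_toFinset_card B B.toFinite]
  have hpos : 0 < S.card := by
    obtain ⟨χ, hχ⟩ := nonempty_of_isPBlock hB
    exact Finset.card_pos.2 ⟨χ, B.toFinite.mem_toFinset.2 hχ⟩
  have h4 : ¬ 2 ^ 2 ∣ Q := fun h => by have := Nat.mod_eq_zero_of_dvd h; norm_num at this; omega
  have hQ0 : Q ≠ 0 := fun h => h4 (by rw [h]; exact dvd_zero _)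
  have h1 : Q.factorization 2 ≤ 1 := by
    by_contra h
    exact h4 ((Nat.prime_two.pow_dvd_iff_le_factorization hQ0).2 (by omega))
  rw [hsum, Nat.factorization_mul (pow_ne_zero _ two_ne_zero) hQ0, Finsupp.add_apply,
    Nat.factorization_pow_self Nat.prime_two] at hfac
  show (Nat.card G).factorization 2 - m ≤ 1
  omega

/-- A block with normal defect group and at most three characters of height zero has cyclic
defect group. -/
theorem isCyclic_of_height_zero_le_three (hM : IsPModular p M) {B : Set (IrrCharacter G)}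
    (hB : IsPBlock M B) {D : Subgroup G} [D.Normal] (hD : IsDefectGroup p M B D)
    (hk : Nat.card {χ : IrrCharacter G // χ ∈ B ∧ blockHeight p B (χ : G → ℂ) = 0} ≤ 3) :
    IsCyclic D := by
  classical
  haveI := hM.2.1
  haveI := charP_kres hM
  haveI := Fintype.ofFinite G
  have hp : p.Prime := Fact.out
  have hDp : IsPGroup p D := ((isDefectGroup_topEl_iff (M := M) hB D).1 hD).2.1
  set Φ := (frattini D).map D.subtype with hΦdef
  haveI hΦn : Φ.Normal := ConjAct.normal_of_characteristic_of_normal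
  have hΦD : Φ ≤ D := Subgroup.map_subtype_le _
  have hΦp : IsPGroup p Φ := hDp.to_le hΦD
  obtain ⟨Bb, hBb, hsub, hdef⟩ := Cfsg.Agent.S4434.result p M hM Φ hΦp B hB
  set V := D.map (QuotientGroup.mk' Φ) with hVdef
  have hV : IsDefectGroup p M Bb V := (hdef V).2 ⟨D, hD, rfl⟩
  haveI : V.Normal := Subgroup.Normal.map inferInstance _ (QuotientGroup.mk'_surjective Φ)
  have hker : ∀ a : D, ((a : G) : G ⧸ Φ) = 1 ↔ a ∈ frattini D := fun a => by
    rw [QuotientGroup.eq_one_iff, hΦdef]
    exact Subgroup.mem_map_iff_mem D.subtype_injective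
  have hab : ∀ a ∈ V, ∀ c ∈ V, a * c = c * a := by
    rintro _ ⟨a, ha, rfl⟩ _ ⟨c, hc, rfl⟩
    have h := (hker _).2
      (CfsgLib.Frobenius57.pow_mem_frattini hDp ⟨a, ha⟩ ⟨c, hc⟩).2
    simp only [Subgroup.coe_mul, InvMemClass.coe_inv, QuotientGroup.mk_mul,
      QuotientGroup.mk_inv] at h
    show (a : G ⧸ Φ) * (c : G ⧸ Φ) = (c : G ⧸ Φ) * (a : G ⧸ Φ)
    exact mul_inv_eq_iff_eq_mul.1 (mul_inv_eq_one.1 h)
  have hexp : ∀ v ∈ V, v ^ p = 1 := by
    rintro _ ⟨a, ha, rfl⟩
    have h := (hker _).2 (CfsgLib.Frobenius57.pow_mem_frattini hDp ⟨a, ha⟩ ⟨a, ha⟩).1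
    rw [SubmonoidClass.coe_pow, QuotientGroup.mk_pow] at h
    exact h
  have hVcard : Nat.card V = (frattini D).index := by
    rw [hVdef, show D.map (QuotientGroup.mk' Φ) = ((QuotientGroup.mk' Φ).comp D.subtype).range by
      rw [MonoidHom.range_comp, Subgroup.range_subtype], ← Subgroup.index_ker]
    congr 1
    ext a
    exact hker a
  -- the heights
  haveI : Fintype (G ⧸ Φ) := Fintype.ofFinite _
  have hall : ∀ χ ∈ Bb, blockHeight p Bb (χ : G ⧸ Φ → ℂ) = 0 :=
    (Cfsg.Agent.S0972.result p M hM Bb hBb V hV).1 hab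
  have hcoe : ∀ χ : IrrCharacter (G ⧸ Φ),
      (Chars.inflate Φ χ : G → ℂ) = (χ : G ⧸ Φ → ℂ) ∘ QuotientGroup.mk := fun χ =>
    funext fun g => Chars.inflate_apply Φ χ g
  have hmin : ∀ χ ∈ Bb, blockHeight p B (Chars.inflate Φ χ : G → ℂ) = 0 := by
    intro χ hχ
    have hin := hsub χ hχ _ (hcoe χ)
    rw [blockHeight_eq_zero_iff' hin, Chars.charDegree_inflate,
      (blockHeight_eq_zero_iff' hχ).1 (hall χ hχ)]
    have h1 := minExp_add_of_defectGroup hM hB hD
    have h2 := minExp_add_of_defectGroup hM hBb hV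
    obtain ⟨i, hi⟩ := IsPGroup.iff_card.1 hDp
    obtain ⟨j, hj⟩ := IsPGroup.iff_card.1 hΦp
    have hGq : (Nat.card G).factorization p = (Nat.card (G ⧸ Φ)).factorization p + j := by
      rw [Subgroup.card_eq_card_quotient_mul_card_subgroup Φ,
        Nat.factorization_mul Nat.card_pos.ne' Nat.card_pos.ne', Finsupp.add_apply, hj,
        Nat.factorization_pow_self hp]
    have hDV : Nat.card D = Nat.card V * Nat.card Φ := by
      rw [hVcard, hΦdef, Subgroup.card_map_of_injective D.subtype_injective, mul_comm,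
        Subgroup.card_mul_index]
    obtain ⟨l, -, hl⟩ := (Nat.dvd_prime_pow hp).1 (hi ▸ (Dvd.intro _ hDV.symm : Nat.card V ∣ Nat.card D))
    rw [hi, Nat.factorization_pow_self hp] at h1
    rw [hl, Nat.factorization_pow_self hp] at h2
    rw [hi, hl, hj, ← pow_add] at hDV
    have := Nat.pow_right_injective hp.two_le hDV
    omega
  have hkb : Nat.card Bb ≤ 3 := by
    refine le_trans (Nat.card_le_card_of_injective
      (fun χ : Bb => (⟨Chars.inflate Φ χ.1, hsub χ.1 χ.2 _ (hcoe χ.1), hmin χ.1 χ.2⟩ :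
        {χ : IrrCharacter G // χ ∈ B ∧ blockHeight p B (χ : G → ℂ) = 0})) ?_) hk
    exact fun a c h => Subtype.ext (Chars.inflate_injective Φ (congrArg Subtype.val h))
  -- conclusion
  refine CfsgLib.PGroup.isCyclic_of_frattini_index (p := p) ?_
  rw [← hVcard]
  obtain ⟨l, hl⟩ := IsPGroup.iff_card.1
    (((isDefectGroup_topEl_iff (M := M) hBb V).1 hV).2.1)
  have hl1 : l ≤ 1 := by
    by_cases hp2 : p = 2
    · subst hp2
      have h := Contrib.natCard_defectGroup hM hBb hV
      rw [hl] at h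
      have := Nat.pow_right_injective le_rfl h
      have := defect_le_one_of_two hM hBb hall hkb
      omega
    · by_contra hlt
      exact false_of_card_le_three hM hp2 hBb hV hab hexp
        (by rw [hl]; exact Nat.pow_le_pow_right hp.pos (by omega)) hkb
  rw [hl]
  exact (pow_dvd_pow p hl1).trans (by rw [pow_one])

end CfsgLib.Blocks.NormalDefectThree
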