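import Mathlib.RepresentationTheory.Basic
import Mathlib.RingTheory.IntegralDomain
import Mathlib.LinearAlgebra.Charpoly.BaseChange
import Mathlib.GroupTheory.Perm.Cycle.Type
import Mathlib.FieldTheory.Finiteness
import Mathlib.Algebra.Field.ZMod

/-!
# Centralizers of irreducible elements of a faithful linear group

If no proper subspace is stable under `x`, then the centralizer of `x` is cyclic and at most
`dim W` powers of `x` are conjugate to it.
-/

set_option autoImplicit false

namespace CfsgLib.Blocks.NormalDefectThree

/-- No proper subspace is stable under `f`. -/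
def IsIrredEnd {K W : Type*} [Field K] [AddCommGroup W] [Module K W] (f : Module.End K W) : Prop :=
  ∀ U : Submodule K W, (∀ u ∈ U, f u ∈ U) → U = ⊥ ∨ U = ⊤

section field

variable {K W : Type*} [Field K] [AddCommGroup W] [Module K W] {f : Module.End K W}

theorem commute_apply {g : Module.End K W} (h : Commute f g) (u : W) : f (g u) = g (f u) :=
  LinearMap.congr_fun h.eq u

theorem injective_of_commute (hf : IsIrredEnd f) {a : Module.End K W} (ha : a ≠ 0)
    (h : Commute f a) : Function.Injective a := by
  rcases hf (LinearMap.ker a) (fun u hu => by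
      rw [LinearMap.mem_ker] at hu ⊢
      rw [← commute_apply h, hu, map_zero]) with h0 | h0
  · exact LinearMap.ker_eq_bot.1 h0
  · exact absurd (LinearMap.ker_eq_top.1 h0) ha

theorem commute_of_mem_adjoin {a : Module.End K W} (ha : a ∈ Algebra.adjoin K {f}) :
    Commute f a := by
  induction ha using Algebra.adjoin_induction with
  | mem x hx => rw [Set.mem_singleton_iff.1 hx]
  | algebraMap r => exact (Algebra.commutes r f).symm
  | add x y _ _ hx hy => exact hx.add_right hy
  | mul x y _ _ hx hy => exact hx.mul_right hy

theorem commute_of_mem_adjoin₂ {a b : Module.End K W} (ha : a ∈ Algebra.adjoin K {f})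
    (hb : b ∈ Algebra.adjoin K {f}) : Commute a b := by
  induction ha using Algebra.adjoin_induction with
  | mem x hx => rw [Set.mem_singleton_iff.1 hx]; exact commute_of_mem_adjoin hb
  | algebraMap r => exact Algebra.commutes r b
  | add x y _ _ hx hy => exact hx.add_left hy
  | mul x y _ _ hx hy => exact hx.mul_left hy

theorem mem_adjoin_of_commute (hf : IsIrredEnd f) {g : Module.End K W} (h : Commute f g) :
    g ∈ Algebra.adjoin K {f} := by
  rcases subsingleton_or_nontrivial W with hW | hW
  · rw [show g = 0 from LinearMap.ext fun _ => Subsingleton.elim _ _]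
    exact Subalgebra.zero_mem _
  obtain ⟨v, hv⟩ := exists_ne (0 : W)
  set S := Algebra.adjoin K {f}
  have hU : (Subalgebra.toSubmodule S).map (LinearMap.applyₗ v) = ⊤ := by
    refine (hf _ ?_).resolve_left ?_
    · rintro _ ⟨a, ha, rfl⟩
      exact ⟨f * a, S.mul_mem (Algebra.self_mem_adjoin_singleton K f) ha, rfl⟩
    · intro h0
      refine hv ((Submodule.mem_bot K).1 ?_)
      rw [← h0]
      exact ⟨1, S.one_mem, rfl⟩
  obtain ⟨a, ha, hav⟩ : g v ∈ (Subalgebra.toSubmodule S).map (LinearMap.applyₗ v) := by
    rw [hU]; trivial
  have hga : g - a = 0 := by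
    by_contra hne
    have h1 := injective_of_commute hf hne (h.sub_right (commute_of_mem_adjoin ha))
    refine hv (h1 ?_)
    rw [LinearMap.sub_apply, map_zero, show a v = g v from hav, sub_self]
  rwa [sub_eq_zero.1 hga]

/-- The algebra generated by an irreducible element is a commutative domain. -/
theorem isDomain_adjoin (hf : IsIrredEnd f) [Nontrivial W] :
    NoZeroDivisors (Algebra.adjoin K {f}) := by
  refine ⟨fun {a b} hab => or_iff_not_imp_left.2 fun ha => ?_⟩
  have ha' : (a : Module.End K W) ≠ 0 := fun h0 => ha (Subtype.ext h0)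
  have h1 := injective_of_commute hf ha' (commute_of_mem_adjoin a.2)
  refine Subtype.ext (LinearMap.ext fun u => h1 ?_)
  have h2 : ((a : Module.End K W) * (b : Module.End K W)) u = 0 := by
    rw [← MulMemClass.coe_mul, hab]; rfl
  show (a : Module.End K W) ((b : Module.End K W) u) = _
  rw [← Module.End.mul_apply, h2]
  simp

end field

variable {K W : Type*} [Field K] [AddCommGroup W] [Module K W] [FiniteDimensional K W]
  [Nontrivial W] {E : Type*} [Group E] [Finite E] (ρ : Representation K E W)

/-- The centralizer of an irreducible element is cyclic. -/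
theorem isCyclic_centralizer (hρ : Function.Injective ρ) {x : E} (hx : IsIrredEnd (ρ x)) :
    IsCyclic (Subgroup.centralizer ({x} : Set E)) := by
  let S := Algebra.adjoin K {ρ x}
  letI : CommRing S := { (inferInstance : Ring S) with
    mul_comm := fun a b => Subtype.ext (commute_of_mem_adjoin₂ a.2 b.2).eq }
  haveI : NoZeroDivisors S := isDomain_adjoin hx
  haveI : IsDomain S := NoZeroDivisors.to_isDomain _
  let φ : Subgroup.centralizer ({x} : Set E) →* S :=
    { toFun := fun c => ⟨ρ c, mem_adjoin_of_commute hx
        ((show Commute x (c : E) from (Subgroup.mem_centralizer_singleton_iff.1 c.2).symm).map ρ)⟩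
      map_one' := Subtype.ext (by simp)
      map_mul' := fun a b => Subtype.ext (by simp) }
  exact isCyclic_of_subgroup_isDomain φ fun a b h => Subtype.ext (hρ (congrArg Subtype.val h))

/-- At most `dim W` powers of an irreducible element are conjugate to it. -/
theorem card_conj_powers_le (hρ : Function.Injective ρ) {x : E} (hx : IsIrredEnd (ρ x))
    (s : Finset E) (hs : ∀ y ∈ s, Commute x y ∧ IsConj x y) :
    s.card ≤ Module.finrank K W := by
  classical
  let S := Algebra.adjoin K {ρ x}
  letI : CommRing S := { (inferInstance : Ring S) with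
    mul_comm := fun a b => Subtype.ext (commute_of_mem_adjoin₂ a.2 b.2).eq }
  haveI : NoZeroDivisors S := isDomain_adjoin hx
  haveI : IsDomain S := NoZeroDivisors.to_isDomain _
  set P := (ρ x).charpoly
  let emb : s → S := fun y => ⟨ρ y.1, mem_adjoin_of_commute hx ((hs y.1 y.2).1.map ρ)⟩
  have hinj : Function.Injective emb := fun a b h => Subtype.ext (hρ (congrArg Subtype.val h))
  have hroot : ∀ y : s, Polynomial.aeval (ρ (y : E)) P = 0 := by
    intro y
    obtain ⟨g, hg⟩ := isConj_iff.1 (hs y.1 y.2).2
    let e : W ≃ₗ[K] W := LinearEquiv.ofLinear (ρ g) (ρ g⁻¹)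
      (by rw [← Module.End.mul_eq_comp, ← map_mul, mul_inv_cancel, map_one]; rfl)
      (by rw [← Module.End.mul_eq_comp, ← map_mul, inv_mul_cancel, map_one]; rfl)
    have he : e.conj (ρ x) = ρ (y : E) := by
      rw [← hg, map_mul, map_mul]
      rfl
    rw [show P = (e.conj (ρ x)).charpoly from (LinearEquiv.charpoly_conj e _).symm, he]
    exact LinearMap.aeval_self_charpoly _
  have h := Polynomial.card_le_degree_of_subset_roots (R := S)
    (p := P.map (algebraMap K S)) (Z := Finset.univ.image emb) ?_
  · rwa [Finset.card_image_of_injective _ hinj, Finset.card_univ, Fintype.card_coe,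
      Polynomial.natDegree_map_eq_of_injective (algebraMap K S).injective,
      LinearMap.charpoly_natDegree] at h
  · intro a ha
    rw [Finset.mem_val, Finset.mem_image] at ha
    obtain ⟨y, -, rfl⟩ := ha
    rw [Polynomial.mem_roots, Polynomial.IsRoot.def, Polynomial.eval_map_algebraMap]
    · refine Subtype.ext ?_
      rw [show ((Polynomial.aeval (emb y) P : S) : Module.End K W) =
        Polynomial.aeval ((emb y : S) : Module.End K W) P from
          (Polynomial.aeval_algHom_apply S.val (emb y) P).symm]
      exact hroot y
    · exact ((LinearMap.charpoly_monic (ρ x)).map _).ne_zero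

end CfsgLib.Blocks.NormalDefectThree
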