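import Cfsg.Agent.Blocks.NormalDefectThree.Irred
import Cfsg.Agent.Zsigmondy.Main
import Mathlib.GroupTheory.Sylow

/-!
# Transitive linear `p'`-groups with only one class of elements with cyclic centralizer

`false_of_transitive`: there is no such group on `W`, `2 ≤ dim W`, `p` odd, whose order is the sum
of two positive squares.
-/

set_option autoImplicit false
set_option linter.style.haveILetI false

namespace CfsgLib.Blocks.NormalDefectThree

open CfsgLib.Zsigmondy

variable {p : ℕ} [hpF : Fact p.Prime] {W : Type*} [AddCommGroup W] [Module (ZMod p) W] [Finite W]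
  {E : Type*} [Group E] (ρ : Representation (ZMod p) E W)

local notation "dimW" => Module.finrank (ZMod p) W

/-- The fixed space. -/
def fixOf (x : E) : Submodule (ZMod p) W := LinearMap.ker (ρ x - 1)

omit [Finite W] in
theorem mem_fixOf {x : E} {u : W} : u ∈ fixOf ρ x ↔ ρ x u = u := by
  simp [fixOf, sub_eq_zero]

/-- The negated space. -/
def negOf (x : E) : Submodule (ZMod p) W := LinearMap.ker (ρ x + 1)

omit [Finite W] in
theorem mem_negOf {x : E} {u : W} : u ∈ negOf ρ x ↔ ρ x u = -u := by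
  simp [negOf, add_eq_zero_iff_eq_neg]

theorem natCard_submodule (U : Submodule (ZMod p) W) :
    Nat.card U = p ^ Module.finrank (ZMod p) U := by
  rw [Module.natCard_eq_pow_finrank (K := ZMod p), Nat.card_zmod]

omit [Finite W] in
theorem rho_inv_apply (x : E) (u : W) : ρ x⁻¹ (ρ x u) = u := by
  rw [← Module.End.mul_apply, ← map_mul, inv_mul_cancel, map_one]; rfl

/-- Fixed vectors in a stable subspace, modulo a prime. -/
theorem modEq_fixed {r : ℕ} [Fact r.Prime] {k : ℕ} {x : E} (hx : x ^ r ^ k = 1)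
    {U : Submodule (ZMod p) W} (hU : ∀ u ∈ U, ρ x u ∈ U) :
    Nat.card U ≡ Nat.card ↥(U ⊓ fixOf ρ x) [MOD r] := by
  classical
  haveI := Fintype.ofFinite U
  let f : Function.End U := fun u => ⟨ρ x u, hU u u.2⟩
  have hpow : ∀ (j : ℕ) (u : U), (((f ^ j) u : U) : W) = ρ (x ^ j) u := by
    intro j
    induction j with
    | zero => intro u; simp [show ((1 : Function.End U) u) = u from rfl]
    | succ j ih =>
      intro u
      rw [pow_succ' f, pow_succ' x, map_mul, Module.End.mul_apply, ← ih u]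
      rfl
  have hf : f ^ r ^ k = 1 := funext fun u => Subtype.ext (by rw [hpow, hx, map_one]; rfl)
  have h := Equiv.Perm.card_fixedPoints_modEq hf
  rw [← Nat.card_eq_fintype_card, ← Nat.card_eq_fintype_card] at h
  have e : Nat.card f.fixedPoints = Nat.card ↥(U ⊓ fixOf ρ x) := Nat.card_congr
    { toFun := fun v => ⟨((v : U) : W), (v : U).2, (mem_fixOf ρ).2 (congrArg Subtype.val v.2)⟩
      invFun := fun v => ⟨⟨(v : W), v.2.1⟩, Subtype.ext ((mem_fixOf ρ).1 v.2.2)⟩
      left_inv := fun _ => rfl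
      right_inv := fun _ => rfl }
  rwa [e] at h

/-- Elements of primitive prime order act irreducibly. -/
theorem isIrredEnd_of_ppd (hρ : Function.Injective ρ) {r : ℕ} (hr : IsPPD r p dimW) (hn : 0 < dimW)
    {x : E} (hx : orderOf x = r) : IsIrredEnd (ρ x) := by
  haveI := Fact.mk hr.prime
  have hp := hpF.out
  have hxr : x ^ r ^ 1 = 1 := by rw [pow_one, ← hx, pow_orderOf_eq_one]
  have hone : ∀ i : ℕ, p ^ i ≡ 1 [MOD r] → dimW ∣ i := fun i hi =>
    (hr.dvd_iff hp.one_le hn i).1 ((Nat.modEq_iff_dvd' (Nat.one_le_pow _ _ hp.pos)).1 hi.symm)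
  have hW : p ^ dimW ≡ 1 [MOD r] :=
    ((Nat.modEq_iff_dvd' (Nat.one_le_pow _ _ hp.pos)).2 hr.dvd).symm
  have hlt : ∀ U : Submodule (ZMod p) W, U ≠ ⊤ → dimW ∣ Module.finrank (ZMod p) U → U = ⊥ := by
    intro U hU hd
    have h1 : Module.finrank (ZMod p) U < dimW := Submodule.finrank_lt hU
    exact Submodule.finrank_eq_zero.1 (Nat.eq_zero_of_dvd_of_lt hd h1)
  have hfix : fixOf ρ x = ⊥ := by
    refine hlt _ (fun htop => ?_) (hone _ ?_)
    · have h1 : ρ x = ρ 1 := by
        refine LinearMap.ext fun u => ?_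
        rw [map_one]
        exact (mem_fixOf ρ).1 (htop ▸ Submodule.mem_top)
      rw [hρ h1, orderOf_one] at hx
      exact hr.prime.ne_one hx.symm
    · have h := modEq_fixed ρ hxr (U := ⊤) (fun _ _ => trivial)
      rw [top_inf_eq, natCard_submodule, natCard_submodule, finrank_top] at h
      exact h.symm.trans hW
  intro U hU
  by_cases hUtop : U = ⊤
  · exact Or.inr hUtop
  refine Or.inl (hlt U hUtop (hone _ ?_))
  have h := modEq_fixed ρ hxr hU
  rwa [hfix, inf_bot_eq, natCard_submodule, natCard_submodule, finrank_bot, pow_zero] at h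

variable [Finite E]

/-- Orbit and stabilizer of a vector under a group transitive on the nonzero ones. -/
theorem card_eq_mul_stab (htr : ∀ u v : W, u ≠ 0 → v ≠ 0 → ∃ g : E, ρ g u = v) {v : W}
    (hv : v ≠ 0) :
    ∃ S : Subgroup E, (∀ g, g ∈ S ↔ ρ g v = v) ∧ Nat.card E = (p ^ dimW - 1) * Nat.card S := by
  classical
  letI : MulAction E W :=
    { smul := fun g u => ρ g u
      one_smul := fun u => by show ρ 1 u = u; rw [map_one]; rfl
      mul_smul := fun g h u => by
        show ρ (g * h) u = ρ g (ρ h u)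
        rw [map_mul]
        rfl }
  refine ⟨MulAction.stabilizer E v, fun g => Iff.rfl, ?_⟩
  have horb : MulAction.orbit E v = {0}ᶜ := by
    ext u
    simp only [Set.mem_compl_iff, Set.mem_singleton_iff]
    constructor
    · rintro ⟨g, rfl⟩ (h0 : ρ g v = 0)
      refine hv ?_
      rw [← rho_inv_apply ρ g v, h0, map_zero]
    · exact fun hu => htr v u hv hu
  have h := Nat.card_congr (MulAction.orbitEquivQuotientStabilizer E v)
  rw [Subgroup.card_eq_card_quotient_mul_card_subgroup (MulAction.stabilizer E v), ← h, horb]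
  congr 1
  rw [Nat.card_coe_set_eq, Set.ncard_compl _ (Set.toFinite _), Set.ncard_singleton,
    Module.natCard_eq_pow_finrank (K := ZMod p) (V := W), Nat.card_zmod]

/-- Two positive squares are not divisible exactly once by a prime `3` or `7`. -/
theorem sq_dvd_of_sum_sq {r a b : ℕ} (hr : r = 3 ∨ r = 7) (h : r ∣ a ^ 2 + b ^ 2) :
    r ^ 2 ∣ a ^ 2 + b ^ 2 := by
  have key : (r ∣ a) ∧ (r ∣ b) := by
    rcases hr with rfl | rfl
    · have h3 : ∀ x y : ZMod 3, x ^ 2 + y ^ 2 = 0 → x = 0 ∧ y = 0 := by decide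
      have := h3 a b (by exact_mod_cast (ZMod.natCast_eq_zero_iff _ _).2 h)
      exact ⟨(ZMod.natCast_eq_zero_iff _ _).1 this.1, (ZMod.natCast_eq_zero_iff _ _).1 this.2⟩
    · have h7 : ∀ x y : ZMod 7, x ^ 2 + y ^ 2 = 0 → x = 0 ∧ y = 0 := by decide
      have := h7 a b (by exact_mod_cast (ZMod.natCast_eq_zero_iff _ _).2 h)
      exact ⟨(ZMod.natCast_eq_zero_iff _ _).1 this.1, (ZMod.natCast_eq_zero_iff _ _).1 this.2⟩
  exact dvd_add (pow_dvd_pow_of_dvd key.1 2) (pow_dvd_pow_of_dvd key.2 2)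

omit [Finite W] [Finite E] in
theorem two_ne_zero_zmod (hp2 : p ≠ 2) : (2 : ZMod p) ≠ 0 := by
  intro h
  have h1 : ((2 : ℕ) : ZMod p) = 0 := by exact_mod_cast h
  exact hp2 ((Nat.prime_dvd_prime_iff_eq (Fact.out : p.Prime) Nat.prime_two).1
    ((ZMod.natCast_eq_zero_iff _ _).1 h1))

omit [Finite E] in
theorem eq_zero_of_eq_neg (hp2 : p ≠ 2) {u : W} (h : u = -u) : u = 0 := by
  have h1 : (2 : ZMod p) • u = 0 := by rw [two_smul]; nth_rewrite 2 [h]; exact add_neg_cancel u
  exact (smul_eq_zero.1 h1).resolve_left (two_ne_zero_zmod hp2)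

omit [Finite E] in
theorem disjoint_fix_neg (hp2 : p ≠ 2) (x : E) : fixOf ρ x ⊓ negOf ρ x = ⊥ := by
  rw [Submodule.eq_bot_iff]
  rintro u ⟨h1, h2⟩
  exact eq_zero_of_eq_neg hp2 (((mem_fixOf ρ).1 h1).symm.trans ((mem_negOf ρ).1 h2))

omit [Finite W] [Finite E] in
theorem stable_of_commute {x y : E} (h : Commute x y) :
    (∀ u ∈ fixOf ρ x, ρ y u ∈ fixOf ρ x) ∧ (∀ u ∈ negOf ρ x, ρ y u ∈ negOf ρ x) := by
  have hc : ∀ u, ρ x (ρ y u) = ρ y (ρ x u) := fun u => commute_apply (h.map ρ) u
  refine ⟨fun u hu => ?_, fun u hu => ?_⟩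
  · rw [mem_fixOf, hc, (mem_fixOf ρ).1 hu]
  · rw [mem_negOf, hc, (mem_negOf ρ).1 hu, map_neg]

omit [Finite E] in
/-- An involution other than `1`, `-1` has both eigenspaces nonzero. -/
theorem eigen_ne_bot (hρ : Function.Injective ρ) {t : E} (ht : t ^ 2 = 1)
    (ht1 : t ≠ 1) (htneg : ¬ ∀ u, ρ t u = -u) : fixOf ρ t ≠ ⊥ ∧ negOf ρ t ≠ ⊥ := by
  have htt : ∀ u, ρ t (ρ t u) = u := fun u => by
    rw [← Module.End.mul_apply, ← map_mul, ← pow_two, ht, map_one]; rfl
  refine ⟨fun h0 => htneg fun u => ?_, fun h0 => ht1 (hρ (LinearMap.ext fun u => ?_))⟩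
  · have h1 : ρ t u + u ∈ fixOf ρ t := by rw [mem_fixOf, map_add, htt, add_comm]
    rw [h0, Submodule.mem_bot] at h1
    exact eq_neg_of_add_eq_zero_left h1
  · have h1 : ρ t u - u ∈ negOf ρ t := by rw [mem_negOf, map_sub, htt, neg_sub]
    rw [h0, Submodule.mem_bot, sub_eq_zero] at h1
    rw [h1, map_one]
    rfl

variable (hρ : Function.Injective ρ) (hp2 : p ≠ 2)
  (hE : ¬ p ∣ Nat.card E) (htr : ∀ u v : W, u ≠ 0 → v ≠ 0 → ∃ g : E, ρ g u = v)
  (hcls : ∀ x y : E, x ≠ 1 → y ≠ 1 → IsCyclic (Subgroup.centralizer ({x} : Set E)) →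
    IsCyclic (Subgroup.centralizer ({y} : Set E)) → IsConj x y)
  (hsq : ∃ a b : ℕ, 0 < a ∧ 0 < b ∧ Nat.card E = a ^ 2 + b ^ 2)

include hρ htr in
/-- The order is a multiple of `p ^ dimW - 1`. -/
theorem dvd_card (hn : 0 < dimW) : p ^ dimW - 1 ∣ Nat.card E := by
  haveI : Nontrivial W := Module.finrank_pos_iff.1 hn
  obtain ⟨v, hv⟩ := exists_ne (0 : W)
  obtain ⟨S, -, h⟩ := card_eq_mul_stab ρ htr hv
  exact ⟨_, h⟩

include hρ hp2 htr in
/-- In dimension four over `ZMod 3` the group contains `-1`. -/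
theorem exists_neg_of_four (hp3 : p = 3) (hn : dimW = 4) : ∃ t : E, t ≠ 1 ∧ t ^ 2 = 1 ∧
    ∀ u, ρ t u = -u := by
  classical
  by_contra hcon
  let P : Sylow 2 E := default
  have h80 : ∀ {u : W}, u ≠ 0 → ∃ S : Subgroup E,
      (∀ g, g ∈ S ↔ ρ g u = u) ∧ Nat.card E = 80 * Nat.card S := fun {u} hu => by
    obtain ⟨S, h1, h2⟩ := card_eq_mul_stab ρ htr hu
    refine ⟨S, h1, ?_⟩
    rw [h2, hn, show p ^ 4 - 1 = 80 by rw [hp3]; norm_num]
  haveI : Nontrivial W := Module.finrank_pos_iff.1 (by omega : 0 < dimW)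
  obtain ⟨v, hv⟩ := exists_ne (0 : W)
  obtain ⟨Sv, -, hSv⟩ := h80 hv
  have hP1 : 1 < Nat.card P := by
    rw [P.card_eq_multiplicity]
    refine Nat.one_lt_pow (Nat.pos_iff_ne_zero.1 ?_) one_lt_two
    exact Nat.prime_two.factorization_pos_of_dvd Nat.card_pos.ne' (by rw [hSv]; omega)
  haveI : Nontrivial P := Finite.one_lt_card_iff_nontrivial.1 hP1
  haveI : Nontrivial (Subgroup.center P) := P.2.center_nontrivial
  obtain ⟨t, ht⟩ := exists_prime_orderOf_dvd_card' (G := Subgroup.center P) 2 (by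
    obtain ⟨k, hk, hk'⟩ := (IsPGroup.nontrivial_iff_card (G := Subgroup.center P)
      (P.2.to_subgroup _)).1 ‹Nontrivial (Subgroup.center P)›
    rw [hk']
    exact dvd_pow_self 2 hk.ne')
  set t' : E := ((t : P) : E)
  have ht2 : orderOf t' = 2 := by rw [Subgroup.orderOf_coe, Subgroup.orderOf_coe, ht]
  have ht1 : t' ≠ 1 := fun h => by simp [h] at ht2
  have htsq : t' ^ 2 = 1 := by rw [← ht2, pow_orderOf_eq_one]
  have hcomm : ∀ g ∈ (P : Subgroup E), Commute t' g := fun g hg =>
    (congrArg Subtype.val (Subgroup.mem_center_iff.1 t.2 ⟨g, hg⟩)).symm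
  obtain ⟨hF, hN⟩ := eigen_ne_bot ρ hρ htsq ht1 fun hneg => hcon ⟨t', ht1, htsq, hneg⟩
  have hbig : ∀ U : Submodule (ZMod p) W, U ≠ ⊥ → (∀ g ∈ (P : Subgroup E), ∀ u ∈ U, ρ g u ∈ U) →
      3 ≤ Module.finrank (ZMod p) U := by
    intro U hU hst
    obtain ⟨u, huU, hu⟩ := (Submodule.ne_bot_iff U).1 hU
    obtain ⟨S, hS, hcard⟩ := h80 hu
    set Q : Subgroup E := (P : Subgroup E) ⊓ S
    obtain ⟨j, hj⟩ := (P.2.to_le (inf_le_left : Q ≤ P)).exists_card_eq
    have h16 : 16 * Nat.card Q ∣ Nat.card E := by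
      rw [hcard]
      exact mul_dvd_mul ⟨5, rfl⟩ (Subgroup.card_dvd_of_le inf_le_right)
    have hPQ : 16 * Nat.card Q ∣ Nat.card P := by
      rw [hj, show (16 : ℕ) = 2 ^ 4 from rfl, ← pow_add, P.card_eq_multiplicity]
      refine pow_dvd_pow 2 ((Nat.prime_two.pow_dvd_iff_le_factorization Nat.card_pos.ne').1 ?_)
      rwa [pow_add, ← hj]
    let f : P → U := fun g => ⟨ρ g u, hst g g.2 u huU⟩
    have himg : Nat.card P ≤ Nat.card U * Nat.card Q := by
      rw [← Nat.card_prod]
      let φ : P → U × Q := fun g => (f g, ⟨((Function.invFun f (f g) : P) : E)⁻¹ * g,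
        (P : Subgroup E).mul_mem ((P : Subgroup E).inv_mem (Function.invFun f (f g)).2) g.2,
        (hS _).2 (by
          have h1 := congrArg Subtype.val (Function.invFun_eq (f := f) ⟨g, rfl⟩)
          simp only [f] at h1 ⊢
          rw [map_mul, Module.End.mul_apply]
          exact (congrArg _ h1.symm).trans (rho_inv_apply ρ _ u))⟩)
      refine Nat.card_le_card_of_injective φ fun a b hab => ?_
      simp only [φ, Prod.mk.injEq] at hab
      obtain ⟨h1, h2⟩ := hab
      have h3 := congrArg Subtype.val h2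
      dsimp only at h3
      rw [h1] at h3
      exact Subtype.ext (mul_left_cancel h3)
    by_contra hlt
    have h9 : Nat.card U ≤ 9 := by
      rw [natCard_submodule]
      calc p ^ Module.finrank (ZMod p) U ≤ p ^ 2 := Nat.pow_le_pow_right (by omega) (by omega)
        _ = 9 := by rw [hp3]
    have h1 := (Nat.le_of_dvd Nat.card_pos hPQ).trans himg
    have h2 : Nat.card U * Nat.card Q ≤ 9 * Nat.card Q := Nat.mul_le_mul_right _ h9
    have h3 : 0 < Nat.card Q := Nat.card_pos
    omega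
  have h1 := hbig _ hF fun g hg => (stable_of_commute ρ (hcomm g hg)).1
  have h2 := hbig _ hN fun g hg => (stable_of_commute ρ (hcomm g hg)).2
  have h3 := Submodule.finrank_sup_add_finrank_inf_eq (fixOf ρ t') (negOf ρ t')
  rw [disjoint_fix_neg ρ hp2 t', finrank_bot, add_zero] at h3
  have h4 : Module.finrank (ZMod p) ↥(fixOf ρ t' ⊔ negOf ρ t') ≤ dimW := Submodule.finrank_le _
  omega

include hρ hcls in
/-- Everything about an element of primitive prime order. -/
theorem ppd_data {r : ℕ} (hr : IsPPD r p dimW) (hn : 0 < dimW) (hrE : r ∣ Nat.card E) :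
    r = dimW + 1 ∧ ¬ r ^ 2 ∣ Nat.card E ∧
      ∀ t : E, t ^ 2 = 1 → (∀ g, Commute t g) → r ≠ 2 → t = 1 := by
  classical
  haveI := Fact.mk hr.prime
  haveI : Nontrivial W := Module.finrank_pos_iff.1 hn
  obtain ⟨z, hz⟩ := exists_prime_orderOf_dvd_card' r hrE
  have hz1 : z ≠ 1 := fun h => by
    rw [h, orderOf_one] at hz; exact hr.prime.ne_one hz.symm
  set C := Subgroup.centralizer ({z} : Set E) with hC
  haveI hCc : IsCyclic C := isCyclic_centralizer ρ hρ (isIrredEnd_of_ppd ρ hρ hr hn hz)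
  obtain ⟨⟨c, hc⟩, hgen⟩ := IsCyclic.exists_generator (α := C)
  have hzC : z ∈ C := Subgroup.mem_centralizer_singleton_iff.2 rfl
  have hzc : z ∈ Subgroup.zpowers c := by
    obtain ⟨i, hi⟩ := hgen ⟨z, hzC⟩
    exact ⟨i, congrArg Subtype.val hi⟩
  have hle : Subgroup.centralizer ({c} : Set E) ≤ C := fun y hy => by
    obtain ⟨i, hi⟩ := hzc
    simp only at hi
    rw [hC, Subgroup.mem_centralizer_singleton_iff, ← hi]
    exact ((show Commute y c from Subgroup.mem_centralizer_singleton_iff.1 hy).zpow_right i).eq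
  have hc1 : c ≠ 1 := fun h => hz1 (by simpa [h] using hzc)
  have hcc : IsCyclic (Subgroup.centralizer ({c} : Set E)) :=
    (Subgroup.subgroupOfEquivOfLe hle).isCyclic.1 inferInstance
  obtain ⟨g, hg⟩ := isConj_iff.1 (hcls z c hz1 hc1 hCc hcc)
  have hcr : orderOf c = r := by
    rw [← hz, ← hg]
    exact (MulAut.conj g).orderOf_eq z
  have hCr : Nat.card C = r := by
    rw [← orderOf_eq_card_of_forall_mem_zpowers hgen, Subgroup.orderOf_mk, hcr]
  have hCz : C = Subgroup.zpowers z := (Subgroup.eq_of_le_of_card_ge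
    (Subgroup.zpowers_le.2 hzC) (by rw [Nat.card_zpowers, hz, hCr])).symm
  refine ⟨?_, fun hr2 => ?_, fun t ht htc hr' => ?_⟩
  · have hlt := hr.lt hpF.out.one_le hn
    let s : Finset E := Finset.univ.image fun i : Fin (r - 1) => z ^ (i.1 + 1)
    have hs : s.card = r - 1 := by
      rw [Finset.card_image_of_injective, Finset.card_univ, Fintype.card_fin]
      intro i j hij
      have h1 : (i : ℕ) + 1 < orderOf z := by rw [hz]; omega
      have h2 : (j : ℕ) + 1 < orderOf z := by rw [hz]; omega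
      have := pow_injOn_Iio_orderOf h1 h2 hij
      exact Fin.ext (by omega)
    have h := card_conj_powers_le ρ hρ (isIrredEnd_of_ppd ρ hρ hr hn hz) s (fun y hy => by
      simp only [s, Finset.mem_image, Finset.mem_univ, true_and] at hy
      obtain ⟨i, rfl⟩ := hy
      refine ⟨(Commute.refl z).pow_right _, ?_⟩
      have ho : orderOf (z ^ (i.1 + 1)) = r := by
        rw [orderOf_pow' z (by omega), hz,
          Nat.Coprime.gcd_eq_one ((hr.prime.coprime_iff_not_dvd).2
            (Nat.not_dvd_of_pos_of_lt (by omega) (by omega))), Nat.div_one]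
      refine hcls _ _ hz1 (fun h1 => ?_) hCc (isCyclic_centralizer ρ hρ
        (isIrredEnd_of_ppd ρ hρ hr hn ho))
      rw [h1, orderOf_one] at ho
      exact hr.prime.ne_one ho.symm)
    omega
  · -- a Sylow `r`-subgroup centralizes a conjugate of `z`
    obtain ⟨P, hP⟩ := (IsPGroup.of_card (n := 1) (by rw [Nat.card_zpowers, hz, pow_one])
      : IsPGroup r (Subgroup.zpowers z)).exists_le_sylow
    have hzP : z ∈ (P : Subgroup E) := hP (Subgroup.mem_zpowers z)
    haveI : Nontrivial P := (Subgroup.nontrivial_iff_exists_ne_one _).2 ⟨z, hzP, hz1⟩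
    haveI := P.2.center_nontrivial
    obtain ⟨⟨⟨w, hwP⟩, hw⟩, hw1⟩ := exists_ne (1 : Subgroup.center P)
    have hwne : w ≠ 1 := fun h => hw1 (Subtype.ext (Subtype.ext h))
    have hwz : w ∈ Subgroup.zpowers z := by
      rw [← hCz, hC, Subgroup.mem_centralizer_singleton_iff]
      exact (congrArg Subtype.val (Subgroup.mem_center_iff.1 hw ⟨z, hzP⟩)).symm
    have hzw : z ∈ Subgroup.zpowers w := by
      rw [Subgroup.eq_of_le_of_card_ge (Subgroup.zpowers_le.2 hwz) ?_]
      · exact Subgroup.mem_zpowers z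
      rw [Nat.card_zpowers z, hz, Nat.card_zpowers w]
      obtain ⟨i, hi⟩ := hwz
      have hd : orderOf w ∣ r := hz ▸ (orderOf_dvd_of_mem_zpowers ⟨i, hi⟩)
      rcases (Nat.dvd_prime hr.prime).1 hd with h | h
      · exact absurd (orderOf_eq_one_iff.1 h) hwne
      · exact h.ge
    have hPC : (P : Subgroup E) ≤ C := fun y hy => by
      obtain ⟨i, hi⟩ := hzw
      simp only at hi
      rw [hC, Subgroup.mem_centralizer_singleton_iff, ← hi]
      exact ((show Commute y w from
        (congrArg Subtype.val (Subgroup.mem_center_iff.1 hw ⟨y, hy⟩))).zpow_right i).eq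
    have h1 : Nat.card P ∣ r := (Subgroup.card_dvd_of_le hPC).trans hCr.dvd
    rw [P.card_eq_multiplicity] at h1
    have h2 := (hr.prime.pow_dvd_iff_le_factorization Nat.card_pos.ne').1 hr2
    have h3 : r ^ 2 ≤ r := Nat.le_of_dvd hr.prime.pos ((pow_dvd_pow r h2).trans h1)
    have := hr.prime.one_lt
    nlinarith
  · have htC : t ∈ C := by
      rw [hC, Subgroup.mem_centralizer_singleton_iff]; exact (htc z).eq
    have h1 : orderOf t ∣ r := by
      rw [← hCr, ← Subgroup.orderOf_mk t htC]; exact orderOf_dvd_natCard _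
    have h2 : orderOf t ∣ 2 := orderOf_dvd_of_pow_eq_one ht
    exact orderOf_eq_one_iff.1 (Nat.eq_one_of_dvd_coprimes
      ((Nat.coprime_primes hr.prime Nat.prime_two).2 hr') h1 h2)

include hρ hp2 htr hcls hsq in
/-- The case with a primitive prime divisor. -/
theorem false_of_ppd {r : ℕ} (hr : IsPPD r p dimW) (hn : 2 ≤ dimW) : False := by
  have hp := hpF.out
  have hdvd := dvd_card ρ hρ htr (by omega)
  have hdata : ∀ {s : ℕ}, IsPPD s p dimW → _ := fun {s} hs =>
    ppd_data ρ hρ hcls hs (by omega) (hs.dvd.trans hdvd)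
  obtain ⟨hrn, hr2, hrt⟩ := hdata hr
  obtain ⟨a, b, -, -, hab⟩ := hsq
  have hno : ¬ (dimW + 1 = 3 ∨ dimW + 1 = 7) := by
    intro h
    refine hr2 ?_
    rw [hab]
    refine sq_dvd_of_sum_sq (hrn ▸ h) (hab ▸ hr.dvd.trans hdvd)
  by_cases hn2 : dimW = 2
  · exact hno (Or.inl (by omega))
  by_cases h4 : p = 3 ∧ dimW = 4
  · obtain ⟨t, ht1, ht, htneg⟩ := exists_neg_of_four ρ hρ hp2 htr h4.1 h4.2
    refine ht1 (hrt t ht (fun g => ?_) (by omega))
    refine hρ (LinearMap.ext fun u => ?_)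
    rw [map_mul, map_mul, Module.End.mul_apply, Module.End.mul_apply, htneg, htneg, map_neg]
  by_cases h36 : (p = 3 ∨ p = 5) ∧ dimW = 6
  · exact hno (Or.inr (by omega))
  obtain ⟨s, hs, hbig⟩ := exists_large_isPPD hp.two_le (show 3 ≤ dimW by omega)
    (fun h => hp2 h.1) (fun h => h.2.elim (fun h' => h4 ⟨h.1, h'⟩)
      fun h' => h36 ⟨Or.inl h.1, h'⟩) (fun h => h36 ⟨Or.inr h.1, h.2⟩)
  obtain ⟨hsn, hs2, -⟩ := hdata hs
  rcases hbig with h | h
  · omega
  · exact hs2 (h.trans hdvd)

include hρ hp2 in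
/-- In dimension two, elements of order four act irreducibly when `p + 1` is a power of two. -/
theorem isIrredEnd_of_order_four {s : ℕ} (hs : p + 1 = 2 ^ s) (hn : dimW = 2) {y : E}
    (hy : orderOf y = 4) : IsIrredEnd (ρ y) := by
  classical
  have hp := hpF.out
  have hy2 : y ^ 2 ≠ 1 := fun h => by
    have := Nat.le_of_dvd two_pos (orderOf_dvd_of_pow_eq_one h); omega
  have hy4 : (y ^ 2) ^ 2 = 1 := by
    rw [← pow_mul, show 2 * 2 = orderOf y by rw [hy], pow_orderOf_eq_one]
  have hline : ∀ U : Submodule (ZMod p) W, Module.finrank (ZMod p) U = 1 →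
      (∀ u ∈ U, ρ y u ∈ U) → ∀ u ∈ U, ρ (y ^ 2) u = u := by
    intro U hU hst u hu
    by_cases hu0 : u = 0
    · rw [hu0, map_zero]
    obtain ⟨a, ha⟩ := (finrank_eq_one_iff_of_nonzero' (⟨u, hu⟩ : U)
      (fun h => hu0 (congrArg Subtype.val h))).1 hU ⟨_, hst u hu⟩
    have ha' : ρ y u = a • u := (congrArg Subtype.val ha).symm
    have hpow : ∀ j : ℕ, ρ (y ^ j) u = a ^ j • u := by
      intro j
      induction j with
      | zero => simp
      | succ j ih =>
        rw [pow_succ y, map_mul, Module.End.mul_apply, ha', map_smul, ih, smul_smul, pow_succ']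
    have ha4 : a ^ 4 = 1 := by
      have h := hpow 4
      rw [← hy, pow_orderOf_eq_one, map_one, Module.End.one_apply, hy] at h
      exact (smul_left_injective (ZMod p) hu0 (by simpa using h.symm))
    have ha0 : a ≠ 0 := fun h => by simp [h] at ha4
    have hg : orderOf a ∣ 2 := by
      have h1 : orderOf a ∣ 4 := orderOf_dvd_of_pow_eq_one ha4
      have h2 : orderOf a ∣ p - 1 := orderOf_dvd_of_pow_eq_one (ZMod.pow_card_sub_one_eq_one ha0)
      refine (Nat.dvd_gcd h1 h2).trans ?_
      have hs2 : 2 ≤ s := by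
        by_contra h
        have : 2 ^ s ≤ 2 ^ 1 := Nat.pow_le_pow_right two_pos (by omega)
        have := hp.two_le
        omega
      obtain ⟨k, hk⟩ : 4 ∣ 2 ^ s := pow_dvd_pow 2 hs2
      rw [show p - 1 = 4 * (k - 1) + 2 by omega, Nat.gcd_mul_left_add_right]
      norm_num
    rw [hpow, orderOf_dvd_iff_pow_eq_one.1 hg, one_smul]
  intro U hU
  by_contra hcon
  rw [not_or] at hcon
  have hU1 : Module.finrank (ZMod p) U = 1 := by
    have h1 := Submodule.finrank_lt hcon.2
    have h2 : Module.finrank (ZMod p) U ≠ 0 := fun h => hcon.1 (Submodule.finrank_eq_zero.1 h)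
    omega
  have hcm : Commute (y ^ 2) y := (Commute.refl y).pow_left 2
  obtain ⟨u, hu, hu0⟩ := (Submodule.ne_bot_iff U).1 hcon.1
  have hfu := hline U hU1 hU u hu
  obtain ⟨hF, hN⟩ := eigen_ne_bot ρ hρ hy4 hy2 fun hneg =>
    hu0 (eq_zero_of_eq_neg hp2 (hfu.symm.trans (hneg u)))
  have hN1 : Module.finrank (ZMod p) (negOf ρ (y ^ 2)) = 1 := by
    have h3 := Submodule.finrank_sup_add_finrank_inf_eq (fixOf ρ (y ^ 2)) (negOf ρ (y ^ 2))
    rw [disjoint_fix_neg ρ hp2 (y ^ 2), finrank_bot, add_zero] at h3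
    have h4 : Module.finrank (ZMod p) ↥(fixOf ρ (y ^ 2) ⊔ negOf ρ (y ^ 2)) ≤ dimW :=
      Submodule.finrank_le _
    have h5 : Module.finrank (ZMod p) (fixOf ρ (y ^ 2)) ≠ 0 := fun h =>
      hF (Submodule.finrank_eq_zero.1 h)
    have h6 : Module.finrank (ZMod p) (negOf ρ (y ^ 2)) ≠ 0 := fun h =>
      hN (Submodule.finrank_eq_zero.1 h)
    omega
  obtain ⟨w, hw, hw0⟩ := (Submodule.ne_bot_iff _).1 hN
  exact hw0 (eq_zero_of_eq_neg hp2
    ((hline _ hN1 (stable_of_commute ρ hcm).2 w hw).symm.trans ((mem_negOf ρ).1 hw)))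

include hρ hp2 hE htr hcls in
/-- The case without a primitive prime divisor. -/
theorem false_of_mersenne {s : ℕ} (hs : p + 1 = 2 ^ s) (hn : dimW = 2) : False := by
  classical
  have hp := hpF.out
  haveI : Nontrivial W := Module.finrank_pos_iff.1 (by omega : 0 < dimW)
  have hirr := fun {y : E} (hy : orderOf y = 4) => isIrredEnd_of_order_four ρ hρ hp2 hs hn hy
  have hcyc := fun {y : E} (hy : orderOf y = 4) => isCyclic_centralizer ρ hρ (hirr hy)
  -- no element of order eight
  have hno8 : ∀ y : E, orderOf y ≠ 8 := by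
    intro y hy
    have h4 : orderOf (y ^ 2) = 4 := by rw [orderOf_pow' y two_ne_zero, hy]; rfl
    have hle : Subgroup.centralizer ({y} : Set E) ≤ Subgroup.centralizer ({y ^ 2} : Set E) :=
      fun g hg => Subgroup.mem_centralizer_singleton_iff.2
        ((show Commute g y from Subgroup.mem_centralizer_singleton_iff.1 hg).pow_right 2).eq
    haveI := hcyc h4
    have hc := (Subgroup.subgroupOfEquivOfLe hle).isCyclic.1 inferInstance
    obtain ⟨g, hg⟩ := isConj_iff.1 (hcls (y ^ 2) y (fun h => by simp [h] at h4)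
      (fun h => by simp [h] at hy) (hcyc h4) hc)
    have hconj : orderOf (g * y ^ 2 * g⁻¹) = orderOf (y ^ 2) :=
      (MulAut.conj g).orderOf_eq (y ^ 2)
    rw [hg, hy, h4] at hconj
    omega
  let P : Sylow 2 E := default
  have hdvd := dvd_card ρ hρ htr (by omega : 0 < dimW)
  rw [hn] at hdvd
  have h8dvd : 2 * 2 ^ s ∣ Nat.card E := by
    refine dvd_trans ?_ hdvd
    obtain ⟨k, hk⟩ := hp.odd_of_ne_two hp2
    refine ⟨k, ?_⟩
    rw [← hs, hk, pow_two]
    have : (2 * k + 1) * (2 * k + 1) = 2 * (2 * k + 1 + 1) * k + 1 := by ring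
    omega
  have hPlow : 2 * 2 ^ s ≤ Nat.card (P : Subgroup E) := by
    rw [P.card_eq_multiplicity, ← pow_succ']
    exact Nat.pow_le_pow_right two_pos ((Nat.prime_two.pow_dvd_iff_le_factorization
      Nat.card_pos.ne').1 (by rwa [pow_succ']))
  have hs4 : 4 ≤ 2 ^ s := by have := hp.two_le; omega
  have hP8 : 8 ≤ Nat.card (P : Subgroup E) := by omega
  have hord : ∀ g ∈ (P : Subgroup E), orderOf g ∣ 4 := by
    intro g hg
    obtain ⟨i, hi⟩ := IsPGroup.iff_orderOf.1 P.2 ⟨g, hg⟩
    rw [Subgroup.orderOf_mk] at hi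
    by_cases hi2 : i ≤ 2
    · exact hi ▸ pow_dvd_pow 2 hi2
    · exfalso
      refine hno8 (g ^ 2 ^ (i - 3)) ?_
      rw [orderOf_pow' g (by positivity), hi, Nat.gcd_eq_right (pow_dvd_pow 2 (by omega)),
        Nat.pow_div (by omega) two_pos, show i - (i - 3) = 3 by omega]
      norm_num
  -- an element of order four
  obtain ⟨y, hyP, hy4⟩ : ∃ y ∈ (P : Subgroup E), orderOf y = 4 := by
    by_contra hcon
    simp only [not_exists, not_and] at hcon
    have hsq : ∀ g ∈ (P : Subgroup E), g ^ 2 = 1 := by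
      intro g hg
      obtain ⟨i, hi, hio⟩ := (Nat.dvd_prime_pow Nat.prime_two (m := 2)).1 (hord g hg)
      refine orderOf_dvd_iff_pow_eq_one.1 ?_
      interval_cases i
      · rw [hio]; norm_num
      · rw [hio]; norm_num
      · exact absurd hio (hcon g hg)
    have hab : ∀ a ∈ (P : Subgroup E), ∀ b ∈ (P : Subgroup E), Commute a b := by
      intro a ha b hb
      have h1 : ∀ x ∈ (P : Subgroup E), x⁻¹ = x := fun x hx =>
        inv_eq_of_mul_eq_one_right (by rw [← pow_two]; exact hsq x hx)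
      calc a * b = (a * b)⁻¹ := (h1 _ ((P : Subgroup E).mul_mem ha hb)).symm
        _ = b * a := by rw [mul_inv_rev, h1 a ha, h1 b hb]
    -- an involution other than `-1`
    obtain ⟨t, htP, ht1, htneg⟩ : ∃ t ∈ (P : Subgroup E), t ≠ 1 ∧ ¬ ∀ u, ρ t u = -u := by
      by_contra hnone
      simp only [not_exists, not_and, not_not] at hnone
      have hinj : Function.Injective fun g : (P : Subgroup E) => decide ((g : E) = 1) := by
        intro a b hab'
        simp only [decide_eq_decide] at hab'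
        by_cases ha : (a : E) = 1
        · exact Subtype.ext (ha.trans (hab'.1 ha).symm)
        · exact Subtype.ext (hρ (LinearMap.ext fun u => by
            rw [hnone a a.2 ha, hnone b b.2 fun h => ha (hab'.2 h)]))
      have := Nat.card_le_card_of_injective _ hinj
      simp at this
      omega
    obtain ⟨hF, hN⟩ := eigen_ne_bot ρ hρ (hsq t htP) ht1 htneg
    obtain ⟨u, hu, hu0⟩ := (Submodule.ne_bot_iff _).1 hF
    obtain ⟨w, hw, hw0⟩ := (Submodule.ne_bot_iff _).1 hN
    have hfN : Module.finrank (ZMod p) (fixOf ρ t) = 1 ∧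
        Module.finrank (ZMod p) (negOf ρ t) = 1 := by
      have h3 := Submodule.finrank_sup_add_finrank_inf_eq (fixOf ρ t) (negOf ρ t)
      rw [disjoint_fix_neg ρ hp2 t, finrank_bot, add_zero] at h3
      have h4 : Module.finrank (ZMod p) ↥(fixOf ρ t ⊔ negOf ρ t) ≤ dimW := Submodule.finrank_le _
      have h5 : Module.finrank (ZMod p) (fixOf ρ t) ≠ 0 := fun h =>
        hF (Submodule.finrank_eq_zero.1 h)
      have h6 : Module.finrank (ZMod p) (negOf ρ t) ≠ 0 := fun h =>
        hN (Submodule.finrank_eq_zero.1 h)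
      omega
    have hsign : ∀ (U : Submodule (ZMod p) W) (v : W), v ∈ U → v ≠ 0 →
        Module.finrank (ZMod p) U = 1 → ∀ g ∈ (P : Subgroup E), ρ g v ∈ U →
        ρ g v = v ∨ ρ g v = -v := by
      intro U v hv hv0 hU g hg hgv
      obtain ⟨a, ha⟩ := (finrank_eq_one_iff_of_nonzero' (⟨v, hv⟩ : U)
        (fun h => hv0 (congrArg Subtype.val h))).1 hU ⟨_, hgv⟩
      have ha' : ρ g v = a • v := (congrArg Subtype.val ha).symm
      have h2 : a * a = 1 := by
        refine smul_left_injective (ZMod p) hv0 ?_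
        show (a * a) • v = (1 : ZMod p) • v
        rw [← smul_smul, ← ha', ← map_smul, ← ha', ← Module.End.mul_apply, ← map_mul, ← pow_two,
          hsq g hg, map_one, one_smul]
        rfl
      rcases mul_self_eq_one_iff.1 h2 with h | h <;> simp [ha', h]
    have hinj : Function.Injective fun g : (P : Subgroup E) =>
        (decide (ρ (g : E) u = u), decide (ρ (g : E) w = w)) := by
      intro a b hab'
      simp only [Prod.mk.injEq, decide_eq_decide] at hab'
      have hst := fun g : (P : Subgroup E) => stable_of_commute ρ (hab t htP g g.2)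
      have key : ∀ v : W, v ≠ 0 → (∀ g : (P : Subgroup E), ρ (g : E) v = v ∨ ρ (g : E) v = -v) →
          (ρ (a : E) v = v ↔ ρ (b : E) v = v) → ρ (a : E) v = ρ (b : E) v := by
        intro v hv hg hiff
        rcases hg a with h | h
        · rw [h, hiff.1 h]
        · rcases hg b with h' | h'
          · exact absurd (((hiff.2 h').symm.trans h)) fun h0 => hv (eq_zero_of_eq_neg hp2 h0)
          · rw [h, h']
      have hau := key u hu0 (fun g => hsign _ u hu hu0 hfN.1 g g.2 ((hst g).1 u hu)) hab'.1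
      have haw := key w hw0 (fun g => hsign _ w hw hw0 hfN.2 g g.2 ((hst g).2 w hw)) hab'.2
      refine Subtype.ext (hρ (sub_eq_zero.1 (LinearMap.ker_eq_top.1 ?_)))
      have hle : fixOf ρ t ⊔ negOf ρ t ≤ LinearMap.ker (ρ (a : E) - ρ (b : E)) := by
        have hgen : ∀ (U : Submodule (ZMod p) W) (v : W), v ∈ U → v ≠ 0 →
            Module.finrank (ZMod p) U = 1 → ρ (a : E) v = ρ (b : E) v →
            U ≤ LinearMap.ker (ρ (a : E) - ρ (b : E)) := by
          intro U v hv hv0 hU he x hx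
          obtain ⟨c, hc⟩ := (finrank_eq_one_iff_of_nonzero' (⟨v, hv⟩ : U)
            (fun h => hv0 (congrArg Subtype.val h))).1 hU ⟨x, hx⟩
          rw [show x = c • v from (congrArg Subtype.val hc).symm]
          simp [he]
        exact sup_le (hgen _ u hu hu0 hfN.1 hau) (hgen _ w hw hw0 hfN.2 haw)
      refine eq_top_iff.2 (le_trans (le_of_eq ?_) hle)
      refine (Submodule.eq_top_of_finrank_eq ?_).symm
      have h3 := Submodule.finrank_sup_add_finrank_inf_eq (fixOf ρ t) (negOf ρ t)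
      rw [disjoint_fix_neg ρ hp2 t, finrank_bot, add_zero] at h3
      omega
    have := Nat.card_le_card_of_injective _ hinj
    simp at this
    omega
  set z := y ^ 2 with hz
  have hz1 : z ≠ 1 := fun h => by
    have := Nat.le_of_dvd two_pos (orderOf_dvd_of_pow_eq_one h); omega
  have hzz : z ^ 2 = 1 := by
    rw [hz, ← pow_mul, show 2 * 2 = orderOf y by rw [hy4], pow_orderOf_eq_one]
  have hzneg : ∀ u, ρ z u = -u := by
    by_contra hne
    obtain ⟨hF, hN⟩ := eigen_ne_bot ρ hρ hzz hz1 hne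
    rcases hirr hy4 _ (stable_of_commute ρ ((Commute.refl y).pow_left 2)).1 with h | h
    · exact hF h
    · refine hN ?_
      rw [← disjoint_fix_neg ρ hp2 z, hz, h, top_inf_eq]
  have hzc : ∀ g, Commute z g := fun g => hρ (LinearMap.ext fun u => by
    rw [map_mul, map_mul, Module.End.mul_apply, Module.End.mul_apply, hzneg, hzneg, map_neg])
  have hsq : ∀ g ∈ (P : Subgroup E), g ^ 2 = 1 ∨ g ^ 2 = z := by
    intro g hg
    obtain ⟨i, hi, hio⟩ := (Nat.dvd_prime_pow Nat.prime_two (m := 2)).1 (hord g hg)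
    interval_cases i
    · left; exact orderOf_dvd_iff_pow_eq_one.1 (by rw [hio]; norm_num)
    · left; exact orderOf_dvd_iff_pow_eq_one.1 (by rw [hio]; norm_num)
    · right
      obtain ⟨c, hc⟩ := isConj_iff.1 (hcls y g (fun h => by simp [h] at hy4)
        (fun h => by simp [h] at hio) (hcyc hy4) (hcyc (by simpa using hio)))
      rw [← hc, conj_pow, ← hz, mul_inv_eq_iff_eq_mul]
      exact ((hzc c).eq).symm
  have hcomm : ∀ g ∈ (P : Subgroup E), g * y * g⁻¹ = y ∨ g * y * g⁻¹ = y * z := by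
    intro g hg
    have h1 := hsq g hg
    have h2 := hsq (g⁻¹ * y) ((P : Subgroup E).mul_mem ((P : Subgroup E).inv_mem hg) hyP)
    have he : g * y * g⁻¹ = g ^ 2 * (g⁻¹ * y) ^ 2 * z⁻¹ * y := by
      rw [hz]; simp only [pow_two]; group
    have hzi : z⁻¹ = z := inv_eq_of_mul_eq_one_right (by rw [← pow_two]; exact hzz)
    have hzz' : z * z = 1 := by rw [← pow_two]; exact hzz
    rcases h1 with h1 | h1 <;> rcases h2 with h2 | h2 <;>
      simp only [he, h1, h2, hzi, hzz', one_mul, mul_one]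
    · right; exact (hzc y).eq
    · left; trivial
    · left; trivial
    · right; exact (hzc y).eq
  have hCy : ∀ g ∈ (P : Subgroup E), Commute g y → g ∈ Subgroup.zpowers y := by
    intro g hg hgy
    haveI := hcyc hy4
    set Q : Subgroup E := (P : Subgroup E) ⊓ Subgroup.centralizer ({y} : Set E) with hQ
    have hQc : IsCyclic Q :=
      (Subgroup.subgroupOfEquivOfLe (inf_le_right : Q ≤ _)).isCyclic.1 inferInstance
    obtain ⟨⟨c, hcQ⟩, hgen⟩ := hQc.exists_generator
    have h4 : Nat.card Q ∣ 4 := by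
      rw [← orderOf_eq_card_of_forall_mem_zpowers hgen, Subgroup.orderOf_mk]
      exact hord c hcQ.1
    have hle : Subgroup.zpowers y ≤ Q :=
      Subgroup.zpowers_le.2 ⟨hyP, Subgroup.mem_centralizer_singleton_iff.2 rfl⟩
    rw [Subgroup.eq_of_le_of_card_ge hle (by
      rw [Nat.card_zpowers, hy4]; exact Nat.le_of_dvd (by norm_num) h4)]
    exact ⟨hg, Subgroup.mem_centralizer_singleton_iff.2 hgy.eq⟩
  -- so the Sylow subgroup has order eight
  have hP8' : Nat.card (P : Subgroup E) = 8 := by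
    refine le_antisymm ?_ hP8
    have hinj : ∃ φ : ↥(P : Subgroup E) → Bool × Subgroup.zpowers y, Function.Injective φ := by
      by_cases hall : ∀ g : (P : Subgroup E), (g : E) * y * (g : E)⁻¹ = y
      · exact ⟨fun g => (true, ⟨g, hCy g g.2 (mul_inv_eq_iff_eq_mul.1 (hall g))⟩),
          fun a b h => Subtype.ext (congrArg (fun q : Bool × Subgroup.zpowers y => (q.2 : E)) h)⟩
      simp only [not_forall] at hall
      obtain ⟨g₀, hg₀⟩ := hall
      refine ⟨fun g => if h : (g : E) * y * (g : E)⁻¹ = y then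
          (true, ⟨g, hCy g g.2 (mul_inv_eq_iff_eq_mul.1 h)⟩)
        else (false, ⟨(g₀ : E)⁻¹ * g, hCy _ ((P : Subgroup E).mul_mem
          ((P : Subgroup E).inv_mem g₀.2) g.2) (mul_inv_eq_iff_eq_mul.1 ?_)⟩), ?_⟩
      · calc (g₀ : E)⁻¹ * g * y * ((g₀ : E)⁻¹ * g)⁻¹
            = (g₀ : E)⁻¹ * ((g : E) * y * (g : E)⁻¹) * g₀ := by group
          _ = (g₀ : E)⁻¹ * ((g₀ : E) * y * (g₀ : E)⁻¹) * g₀ := by
              rw [(hcomm g g.2).resolve_left h, (hcomm g₀ g₀.2).resolve_left hg₀]
          _ = y := by group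
      · intro a b hab
        simp only at hab
        split_ifs at hab with ha hb
        all_goals
          simp only [Prod.mk.injEq, Bool.true_eq_false, Bool.false_eq_true, false_and,
            true_and, Subtype.mk.injEq, mul_right_inj] at hab
        all_goals exact Subtype.ext hab
    obtain ⟨φ, hφ⟩ := hinj
    have := Nat.card_le_card_of_injective _ hφ
    rw [Nat.card_prod, Nat.card_zpowers, hy4] at this
    simpa using this
  obtain rfl : p = 3 := by
    have : p + 1 ≤ 4 := by omega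
    have := hp.two_le
    omega
  -- every stabilizer is trivial
  have hstab : ∀ v : W, v ≠ 0 → ∀ g : E, ρ g v = v → g = 1 := by
    intro v hv g hg
    obtain ⟨S, hS, hcard⟩ := card_eq_mul_stab ρ htr hv
    rw [hn] at hcard
    by_contra hg1
    have hS1 : 1 < Nat.card S := Finite.one_lt_card_iff_nontrivial.2
      ((Subgroup.nontrivial_iff_exists_ne_one S).2 ⟨g, (hS g).2 hg, hg1⟩)
    obtain ⟨q, hq, hqd⟩ := Nat.exists_prime_and_dvd (by omega : Nat.card S ≠ 1)
    haveI := Fact.mk hq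
    by_cases hq2 : q = 2
    · subst hq2
      have h16 : 2 ^ 4 ∣ Nat.card E := by
        rw [hcard]; exact mul_dvd_mul (show (8 : ℕ) ∣ 3 ^ 2 - 1 by norm_num) hqd
      have := Nat.le_of_dvd Nat.card_pos ((pow_dvd_pow 2 ((Nat.prime_two.pow_dvd_iff_le_factorization
        Nat.card_pos.ne').1 h16)).trans P.card_eq_multiplicity.symm.dvd)
      omega
    have hq3 : q ≠ 3 := fun h => hE (h ▸ hqd.trans (Subgroup.card_subgroup_dvd_card S))
    obtain ⟨x, hx⟩ := exists_prime_orderOf_dvd_card' q hqd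
    have hxE : orderOf (x : E) = q := (Subgroup.orderOf_coe x).trans hx
    have h := modEq_fixed ρ (r := q) (k := 1) (x := (x : E))
      (by rw [pow_one, ← hxE, pow_orderOf_eq_one]) (U := ⊤) (fun _ _ => trivial)
    rw [top_inf_eq, natCard_submodule, natCard_submodule, finrank_top, hn] at h
    have hne : fixOf ρ (x : E) ≠ ⊤ := fun htop => by
      have h1 : (x : E) = 1 := hρ (LinearMap.ext fun u => by
        rw [map_one]; exact (mem_fixOf ρ).1 (htop ▸ Submodule.mem_top))
      rw [h1, orderOf_one] at hxE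
      exact hq.ne_one hxE.symm
    have hb : fixOf ρ (x : E) ≠ ⊥ := fun hbot => hv
      ((Submodule.mem_bot _).1 (hbot ▸ (mem_fixOf ρ).2 ((hS _).1 x.2)))
    have h1 : Module.finrank (ZMod 3) (fixOf ρ (x : E)) = 1 := by
      have h1 := Submodule.finrank_lt hne
      have h2 : Module.finrank (ZMod 3) (fixOf ρ (x : E)) ≠ 0 := fun h =>
        hb (Submodule.finrank_eq_zero.1 h)
      omega
    rw [h1] at h
    have h6 : q ∣ 6 := (Nat.modEq_iff_dvd' (by norm_num)).1 h.symm
    have := Nat.le_of_dvd (by norm_num) h6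
    interval_cases q <;> simp_all (config := { decide := true })
  -- so every element outside `⟨z⟩` has order four, and there are too many
  have hEP : (P : Subgroup E) = ⊤ := by
    obtain ⟨v, hv⟩ := exists_ne (0 : W)
    obtain ⟨S, hS, hcard⟩ := card_eq_mul_stab ρ htr hv
    have : Nat.card S = 1 := Nat.card_eq_one_iff_unique.2
      ⟨⟨fun a b => Subtype.ext ((hstab v hv a ((hS a).1 a.2)).trans
        (hstab v hv b ((hS b).1 b.2)).symm)⟩, ⟨1⟩⟩
    rw [this, hn] at hcard
    exact Subgroup.eq_top_of_card_eq _ (hP8'.trans (by rw [hcard]; rfl))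
  have hall : ∀ g : E, g = 1 ∨ g = z ∨ g = y ∨ g = y * z := by
    intro g
    rcases hsq g (hEP ▸ Subgroup.mem_top g) with h | h
    · by_cases hg : ∀ u, ρ g u = -u
      · exact Or.inr (Or.inl (hρ (LinearMap.ext fun u => by rw [hg, hzneg])))
      · by_cases hg1 : g = 1
        · exact Or.inl hg1
        obtain ⟨u, hu, hu0⟩ := (Submodule.ne_bot_iff _).1 (eigen_ne_bot ρ hρ h hg1 hg).1
        exact absurd (hstab u hu0 g ((mem_fixOf ρ).1 hu)) hg1
    · have hg4 : orderOf g = 4 := by
        have := orderOf_eq_prime_pow (p := 2) (n := 1) (x := g) (by rw [pow_one, h]; exact hz1)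
          (by rw [show (2 : ℕ) ^ (1 + 1) = 2 * 2 from rfl, pow_mul, h, hzz])
        simpa using this
      obtain ⟨c, hc⟩ := isConj_iff.1 (hcls y g (fun h => by simp [h] at hy4)
        (fun h => by simp [h] at hg4) (hcyc hy4) (hcyc hg4))
      rcases hcomm c (hEP ▸ Subgroup.mem_top c) with h' | h'
      · exact Or.inr (Or.inr (Or.inl (hc.symm.trans h')))
      · exact Or.inr (Or.inr (Or.inr (hc.symm.trans h')))
  haveI := Fintype.ofFinite E
  have hle : Nat.card E ≤ 4 := by
    rw [Nat.card_eq_fintype_card, ← Finset.card_univ]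
    refine (Finset.card_le_card (t := ({1, z, y, y * z} : Finset E)) fun g _ => ?_).trans
      Finset.card_le_four
    simpa using hall g
  have := Nat.card_le_card_of_injective (fun g : (P : Subgroup E) => (g : E)) Subtype.val_injective
  omega

include hρ hp2 hE htr hcls hsq in
/-- No transitive `p'`-group with one class of elements with cyclic centralizer. -/
theorem false_of_transitive (hn : 2 ≤ dimW) : False := by
  by_cases h : ∃ m : ℕ, p + 1 = 2 ^ m
  · by_cases hn2 : dimW = 2
    · obtain ⟨s, hs⟩ := h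
      exact false_of_mersenne ρ hρ hp2 hE htr hcls hs hn2
    · obtain ⟨r, hr⟩ := exists_isPPD hpF.out.one_lt (by omega : 1 < dimW) (fun h => hp2 h.1)
        (fun h => hn2 h.1)
      exact false_of_ppd ρ hρ hp2 htr hcls hsq hr hn
  · obtain ⟨r, hr⟩ := exists_isPPD hpF.out.one_lt (by omega : 1 < dimW) (fun h => hp2 h.1)
      (fun h' => h h'.2)
    exact false_of_ppd ρ hρ hp2 htr hcls hsq hr hn

end CfsgLib.Blocks.NormalDefectThree
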