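import Cfsg.Agent.Blocks.Defect.CentralExt
import Cfsg.Agent.Chars.Basic.Linear
import Mathlib.RingTheory.IntegralDomain

/-!
# A block with central defect group and the characters of the defect group

`exists_lam`: the members correspond one to one to the linear characters of the defect group by
the central character.
-/

set_option autoImplicit false
set_option linter.style.haveILetI false
open Cfsg CfsgLib CfsgLib.Blocks
open scoped ComplexConjugate

namespace CfsgLib.Blocks.NormalDefectThree

universe u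

variable {H : Type u} [Group H] [Fintype H] {p : ℕ} [Fact p.Prime] {M : Ideal AlgInt}
  {V : Subgroup H}

/-- The members of a block with central defect group, by their restriction to it. -/
theorem exists_lam (hM : IsPModular p M) {b : Set (IrrCharacter H)} (hb : IsPBlock M b)
    (hD : IsDefectGroup p M b V) (hcen : V ≤ Subgroup.center H) :
    ∃ lam : IrrCharacter H → (V →* ℂˣ),
      (∀ (φ : IrrCharacter H) (v : V) (h : H),
        (φ : H → ℂ) ((v : H) * h) = (lam φ v : ℂ) * (φ : H → ℂ) h) ∧
      (∀ w, ∃ φ ∈ b, lam φ = w) ∧ Set.InjOn lam b := by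
  classical
  haveI := hM.2.1
  haveI := charP_kres hM
  haveI : Fintype V := Fintype.ofFinite V
  have hVp : IsPGroup p V := ((isDefectGroup_topEl_iff (M := M) hb V).1 hD).2.1
  haveI : IsMulCommutative V := ⟨⟨fun a c => Subtype.ext
    (Subgroup.mem_center_iff.1 (hcen c.2) a)⟩⟩
  have hsup : V ⊔ Subgroup.centralizer (V : Set H) = ⊤ := by
    refine eq_top_iff.2 (le_sup_of_le_right fun h _ => ?_)
    exact Subgroup.mem_centralizer_iff.2 fun v hv => (Subgroup.mem_center_iff.1 (hcen hv) h).symm
  obtain ⟨θ, -, Em, hEinj, hEb, -, hdeg⟩ :=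
    CentralExt.exists_param p M hM V hVp hsup b hb hD
  -- the central characters
  let f : IrrCharacter H → (V →* ℂ) := fun φ =>
    { toFun := fun v => (φ : H → ℂ) v / (φ : H → ℂ) 1
      map_one' := by simp [Chars.map_one_ne_zero φ]
      map_mul' := fun v w => by
        rw [Subgroup.coe_mul, Chars.map_mul_of_mem_center φ (hcen v.2)]; ring }
  let lam : IrrCharacter H → (V →* ℂˣ) := fun φ => (f φ).toHomUnits
  have hlam : ∀ φ v, (lam φ v : ℂ) = (φ : H → ℂ) v / (φ : H → ℂ) 1 := fun φ v => rfl
  have hmul : ∀ (φ : IrrCharacter H) (v : V) (h : H),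
      (φ : H → ℂ) ((v : H) * h) = (lam φ v : ℂ) * (φ : H → ℂ) h := fun φ v h => by
    rw [hlam, Chars.map_mul_of_mem_center φ (hcen v.2)]
  -- the number of members
  have hcard : Nat.card b = Nat.card (V →* ℂˣ) := by
    rw [hEb, Nat.card_range_of_injective hEinj, Nat.card_congr Chars.linCharEquiv]
    exact Nat.card_congr (Equiv.subtypeUnivEquiv fun χ => Chars.map_one_eq_one_of_isMulCommutative χ).symm
  have hn : ∀ φ ∈ b, (φ : H → ℂ) 1 = (θ : H → ℂ) 1 := by
    intro φ hφ
    obtain ⟨μ, rfl⟩ := hEb ▸ hφ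
    rw [← Chars.coe_charDegree (Em μ), hdeg μ,
      (Chars.charDegree_eq_one_iff μ).2 (Chars.map_one_eq_one_of_isMulCommutative μ), one_mul,
      Chars.coe_charDegree]
  -- the sums over the block
  have hsum : ∀ v : V, v ≠ 1 → ∑ φ ∈ b.toFinite.toFinset, conj (lam φ v : ℂ) = 0 := by
    intro v hv
    have hsing : p ∣ orderOf (v : H) := by
      obtain ⟨i, hi⟩ := IsPGroup.iff_orderOf.1 hVp v
      rw [← Subgroup.orderOf_coe] at hi
      rw [hi]
      refine dvd_pow_self p ?_
      rintro rfl
      exact hv (Subtype.ext (orderOf_eq_one_iff.1 (by simpa using hi)))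
    have h := blockCoeff_eq_zero_of_singular hM hb hsing
    rw [blockCoeff, mul_eq_zero] at h
    have h' := h.resolve_left (inv_ne_zero (Nat.cast_ne_zero.2 Nat.card_pos.ne'))
    rw [finsum_mem_eq_finite_toFinset_sum _ b.toFinite] at h'
    have hθ := Chars.map_one_ne_zero θ
    rw [Finset.sum_congr rfl (g := fun φ => (θ : H → ℂ) 1 * ((θ : H → ℂ) 1 * conj (lam φ v : ℂ)))
      fun φ hφ => ?_, ← Finset.mul_sum, ← Finset.mul_sum, mul_eq_zero, mul_eq_zero] at h'
    · tauto
    · rw [Set.Finite.mem_toFinset] at hφ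
      rw [hlam, map_div₀, hn φ hφ, ← Chars.coe_charDegree θ, map_natCast]
      rw [Chars.coe_charDegree]
      field_simp
  have hsurj : ∀ w, ∃ φ ∈ b, lam φ = w := by
    intro w
    by_contra hcon
    simp only [not_exists, not_and] at hcon
    have h1 : ∑ v : V, (w v : ℂ) * ∑ φ ∈ b.toFinite.toFinset, conj (lam φ v : ℂ) =
        (Nat.card b : ℂ) := by
      rw [Finset.sum_eq_single (1 : V) (fun v _ hv => by rw [hsum v hv, mul_zero])
        (fun h => absurd (Finset.mem_univ _) h)]
      simp [Nat.card_coe_set_eq, Set.ncard_eq_toFinset_card b b.toFinite]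
    have h2 : ∑ v : V, (w v : ℂ) * ∑ φ ∈ b.toFinite.toFinset, conj (lam φ v : ℂ) = 0 := by
      simp only [Finset.mul_sum]
      rw [Finset.sum_comm]
      refine Finset.sum_eq_zero fun φ hφ => ?_
      let g : V →* ℂ :=
        { toFun := fun v => (w v : ℂ) * conj (lam φ v : ℂ)
          map_one' := by simp
          map_mul' := fun a c => by simp only [map_mul, Units.val_mul]; ring }
      have hg : g ≠ 1 := by
        intro hg
        refine hcon φ ((Set.Finite.mem_toFinset _).1 hφ) (MonoidHom.ext fun v => Units.ext ?_)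
        have h3 : (w v : ℂ) * conj (lam φ v : ℂ) = 1 := DFunLike.congr_fun hg v
        have h4 : (lam φ v : ℂ) * conj (lam φ v : ℂ) = 1 := by
          rw [Complex.mul_conj, Complex.normSq_eq_norm_sq]
          have h5 : ‖(lam φ v : ℂ)‖ = 1 := by
            rw [hlam, norm_div, Chars.norm_map_of_mem_center φ (hcen v.2),
              div_self (norm_ne_zero_iff.2 (Chars.map_one_ne_zero φ))]
          simp [h5]
        exact mul_right_cancel₀ (right_ne_zero_of_mul_eq_one h3) (h4.trans h3.symm)
      have := sum_hom_units g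
      rw [if_neg hg] at this
      exact_mod_cast this
    rw [h2] at h1
    have : 0 < Nat.card b := by rw [hcard]; exact Nat.card_pos
    exact this.ne' (by exact_mod_cast h1.symm)
  refine ⟨lam, hmul, hsurj, ?_⟩
  have hbij : Function.Bijective (fun φ : b => lam φ) :=
    (Nat.bijective_iff_surjective_and_card _).2 ⟨fun w => by
      obtain ⟨φ, hφ, rfl⟩ := hsurj w
      exact ⟨⟨φ, hφ⟩, rfl⟩, hcard⟩
  exact fun a ha c hc h => congrArg Subtype.val (hbij.1 (a₁ := ⟨a, ha⟩) (a₂ := ⟨c, hc⟩) h)

end CfsgLib.Blocks.NormalDefectThree
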