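import Cfsg.Agent.Blocks.CyclicInertia
import Cfsg.Agent.Blocks.Orth.Blocks
import Cfsg.Agent.Chars.Basic.Kernel
import Cfsg.Agent.Eq.Def_BlockRank

/-!
# The rank of a block and an elementary abelian normal `p`-subgroup

`blockRank_le_card_ker`: the rank of a block is at most the number of its members having a given
elementary abelian normal `p`-subgroup in the kernel.
-/

set_option autoImplicit false
set_option linter.style.haveILetI false
open Cfsg CfsgLib CfsgLib.Blocks

namespace CfsgLib.Blocks.NormalDefectThree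

universe u

variable {G : Type u} [Group G] {p : ℕ} {M : Ideal AlgInt} {V : Subgroup G} [V.Normal]

/-- Regular elements in one coset of `V` are conjugate. -/
theorem isConj_of_mem_coset (hp : p.Prime) (hab : ∀ a ∈ V, ∀ c ∈ V, a * c = c * a)
    (hexp : ∀ v ∈ V, v ^ p = 1) {y z : G} (hy : ¬ p ∣ orderOf y) (hz : ¬ p ∣ orderOf z)
    (hyz : y⁻¹ * z ∈ V) : IsConj y z := by
  have hV : ∀ v ∈ V, y⁻¹ * v * y ∈ V := fun v hv => by
    simpa using ‹V.Normal›.conj_mem v hv y⁻¹
  let I : Subgroup G :=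
    { carrier := {u | ∃ v ∈ V, u = y⁻¹ * v * y * v⁻¹}
      one_mem' := ⟨1, V.one_mem, by group⟩
      mul_mem' := by
        rintro _ _ ⟨v, hv, rfl⟩ ⟨w, hw, rfl⟩
        refine ⟨v * w, V.mul_mem hv hw, ?_⟩
        calc y⁻¹ * v * y * v⁻¹ * (y⁻¹ * w * y * w⁻¹)
            = y⁻¹ * v * y * (v⁻¹ * (y⁻¹ * w * y)) * w⁻¹ := by group
          _ = y⁻¹ * v * y * ((y⁻¹ * w * y) * v⁻¹) * w⁻¹ := by
              rw [hab _ (V.inv_mem hv) _ (hV w hw)]
          _ = y⁻¹ * (v * w) * y * (v⁻¹ * w⁻¹) := by group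
          _ = y⁻¹ * (v * w) * y * (w⁻¹ * v⁻¹) := by rw [hab _ (V.inv_mem hv) _ (V.inv_mem hw)]
          _ = y⁻¹ * (v * w) * y * (v * w)⁻¹ := by group
      inv_mem' := by
        rintro _ ⟨v, hv, rfl⟩
        refine ⟨v⁻¹, V.inv_mem hv, ?_⟩
        calc (y⁻¹ * v * y * v⁻¹)⁻¹ = v * (y⁻¹ * v * y)⁻¹ := by group
          _ = (y⁻¹ * v * y)⁻¹ * v := hab _ hv _ (V.inv_mem (hV v hv))
          _ = y⁻¹ * v⁻¹ * y * v⁻¹⁻¹ := by group }
  set u := y⁻¹ * z with hu
  have hpow : ∀ j : ℕ, ∃ P ∈ V, z ^ j = y ^ j * P ∧ P * (u ^ j)⁻¹ ∈ I := by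
    intro j
    induction j with
    | zero => exact ⟨1, V.one_mem, by simp, by simp⟩
    | succ j ih =>
      obtain ⟨P, hP, hz', hPI⟩ := ih
      refine ⟨y⁻¹ * P * y * u, V.mul_mem (hV P hP) hyz, ?_, ?_⟩
      · rw [pow_succ, pow_succ, hz', hu]; group
      · have he : y⁻¹ * P * y * u * (u ^ (j + 1))⁻¹ =
            (y⁻¹ * P * y * P⁻¹) * (P * (u ^ j)⁻¹) := by
          rw [pow_succ' u]; group
        rw [he]
        exact I.mul_mem ⟨P, hP, rfl⟩ hPI
  obtain ⟨P, -, hzP, hPI⟩ := hpow (orderOf y * orderOf z)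
  have hy1 : y ^ (orderOf y * orderOf z) = 1 := by rw [pow_mul, pow_orderOf_eq_one, one_pow]
  have hz1 : z ^ (orderOf y * orderOf z) = 1 := by
    rw [mul_comm, pow_mul, pow_orderOf_eq_one, one_pow]
  rw [hy1, hz1, one_mul] at hzP
  rw [← hzP, one_mul, I.inv_mem_iff] at hPI
  have hco : Nat.Coprime (orderOf y * orderOf z) (orderOf u) := by
    refine Nat.Coprime.coprime_dvd_right (orderOf_dvd_of_pow_eq_one (hexp u hyz)) ?_
    exact Nat.Coprime.mul_left (hp.coprime_iff_not_dvd.2 hy).symm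
      (hp.coprime_iff_not_dvd.2 hz).symm
  obtain ⟨m, hm⟩ := exists_pow_eq_self_of_coprime hco
  obtain ⟨v, hv, hv'⟩ : u ∈ I := hm ▸ I.pow_mem hPI m
  refine isConj_iff.2 ⟨v, ?_⟩
  calc v * y * v⁻¹ = y * (y⁻¹ * v * y * v⁻¹) := by group
    _ = z := by rw [← hv', hu]; group

variable [Fintype G]

/-- The rank of a block is at most the number of members with `V` in the kernel. -/
theorem blockRank_le_card_ker (hM : IsPModular p M) (hab : ∀ a ∈ V, ∀ c ∈ V, a * c = c * a)
    (hexp : ∀ v ∈ V, v ^ p = 1) {B : Set (IrrCharacter G)} (hB : IsPBlock M B) :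
    blockRank p B ≤
      Nat.card {χ : IrrCharacter G // χ ∈ B ∧ V ≤ Chars.charKer (χ : G → ℂ)} := by
  classical
  haveI := Fintype.ofFinite {χ : IrrCharacter G // χ ∈ B ∧ V ≤ Chars.charKer (χ : G → ℂ)}
  haveI : Fintype (G ⧸ V) := Fintype.ofFinite _
  set S := Submodule.span ℂ ((fun χ : IrrCharacter G => pRegularPart p (χ : G → ℂ)) '' B)
  haveI : Module.Finite ℂ S := Module.Finite.span_of_finite ℂ (B.toFinite.image _)
  let L : (G → ℂ) →ₗ[ℂ] ({χ : IrrCharacter G // χ ∈ B ∧ V ≤ Chars.charKer (χ : G → ℂ)} → ℂ) :=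
    { toFun := fun f χ => classInner f (χ.1 : G → ℂ)
      map_add' := fun f g => funext fun χ => Chars.classInner_add_left _ _ _
      map_smul' := fun c f => funext fun χ => Chars.classInner_smul_left _ _ _ }
  have hprop : ∀ f ∈ S, (∀ g, p ∣ orderOf g → f g = 0) ∧ IsClassFunction G f ∧
      ∀ η : IrrCharacter G, η ∉ B → classInner f (η : G → ℂ) = 0 := by
    intro f hf
    induction hf using Submodule.span_induction with
    | mem f hf =>
      obtain ⟨χ, hχ, rfl⟩ := hf
      refine ⟨fun g hg => by simp [pRegularPart, IsPRegular, hg], fun g h => ?_, fun η hη => ?_⟩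
      · have ho : orderOf (h * g * h⁻¹) = orderOf g := (MulAut.conj h).orderOf_eq g
        simp only [pRegularPart, IsPRegular, ho, Chars.isClassFunction_coe χ g h]
        by_cases hg : p ∣ orderOf g <;> simp [hg]
      · rw [HeightZero.classInner_pRegularPart_eq _ (Chars.isCharacter_coe η),
          HeightZero.regPair_symm, HeightZero.regPair_eq_zero_of_ne_block hM hB hχ hη, mul_zero]
    | zero => exact ⟨fun _ _ => rfl, fun _ _ => rfl, fun η _ => by simp [classInner]⟩
    | add f g _ _ hf hg =>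
      exact ⟨fun x hx => by simp [hf.1 x hx, hg.1 x hx],
        fun x y => by simp [hf.2.1 x y, hg.2.1 x y],
        fun η hη => by rw [Chars.classInner_add_left, hf.2.2 η hη, hg.2.2 η hη, add_zero]⟩
    | smul c f _ hf =>
      exact ⟨fun x hx => by simp [hf.1 x hx], fun x y => by simp [hf.2.1 x y],
        fun η hη => by rw [Chars.classInner_smul_left, hf.2.2 η hη, mul_zero]⟩
  have hinj : Function.Injective (L.comp S.subtype) := by
    rw [← LinearMap.ker_eq_bot, LinearMap.ker_eq_bot']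
    rintro ⟨f, hf⟩ h0
    obtain ⟨hsing, hcl, hout⟩ := hprop f hf
    let F : G ⧸ V → ℂ := fun q => ∑ g : G, if (g : G ⧸ V) = q then f g else 0
    have hFcl : IsClassFunction (G ⧸ V) F := by
      intro q r
      obtain ⟨h, rfl⟩ := QuotientGroup.mk_surjective r
      symm
      refine Fintype.sum_equiv (MulAut.conj h).toEquiv _ _ fun g => ?_
      show (if (g : G ⧸ V) = q then f g else 0) = if ((h * g * h⁻¹ : G) : G ⧸ V) = _ then _ else _
      rw [show f ((MulAut.conj h).toEquiv g) = f g from hcl g h, QuotientGroup.mk_mul,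
        QuotientGroup.mk_mul, QuotientGroup.mk_inv]
      simp only [mul_left_inj, mul_right_inj]
    have hF : ∀ ψ : IrrCharacter (G ⧸ V), classInner F (ψ : G ⧸ V → ℂ) = 0 := by
      intro ψ
      have h1 : classInner f (Chars.inflate V ψ : G → ℂ) = 0 := by
        by_cases hB' : Chars.inflate V ψ ∈ B
        · exact congrFun h0 ⟨_, hB', Chars.le_charKer_inflate V ψ⟩
        · exact hout _ hB'
      simp only [classInner] at h1 ⊢
      rw [mul_eq_zero] at h1
      have h2 : ∑ q : G ⧸ V, F q * (starRingEnd ℂ) ((ψ : G ⧸ V → ℂ) q) =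
          ∑ g : G, f g * (starRingEnd ℂ) ((Chars.inflate V ψ : G → ℂ) g) := by
        simp only [F, Finset.sum_mul, ite_mul, zero_mul]
        rw [Finset.sum_comm]
        exact Finset.sum_congr rfl fun g _ => by
          rw [Finset.sum_ite_eq Finset.univ ((g : G ⧸ V)), if_pos (Finset.mem_univ _),
            Chars.inflate_apply]
      rw [h2, h1.resolve_left (inv_ne_zero (Nat.cast_ne_zero.2 Nat.card_pos.ne')), mul_zero]
    have hF0 : ∀ q, F q = 0 := fun q => by
      rw [Chars.eq_sum_classInner_mul hFcl q]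
      exact Finset.sum_eq_zero fun ψ _ => by rw [hF ψ, zero_mul]
    refine Subtype.ext (funext fun g => ?_)
    show f g = 0
    by_cases hg : p ∣ orderOf g
    · exact hsing g hg
    have hval : ∀ h : G, (if (h : G ⧸ V) = (g : G ⧸ V) then f h else 0) =
        (if (h : G ⧸ V) = (g : G ⧸ V) ∧ ¬ p ∣ orderOf h then f g else 0) := by
      intro h
      by_cases hh : (h : G ⧸ V) = (g : G ⧸ V)
      · by_cases hr : p ∣ orderOf h
        · rw [if_pos hh, if_neg (fun hc => hc.2 hr), hsing h hr]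
        · rw [if_pos hh, if_pos ⟨hh, hr⟩]
          obtain ⟨c, hc⟩ := isConj_iff.1
            (isConj_of_mem_coset hM.1 hab hexp hg hr (QuotientGroup.eq.1 hh.symm))
          rw [← hc, hcl]
      · rw [if_neg hh, if_neg fun hc => hh hc.1]
    have h1 := hF0 (g : G ⧸ V)
    simp only [F] at h1
    rw [Finset.sum_congr rfl fun h _ => hval h, ← Finset.sum_filter, Finset.sum_const,
      nsmul_eq_mul, mul_eq_zero, Nat.cast_eq_zero, Finset.card_eq_zero] at h1
    refine h1.resolve_left (Finset.nonempty_iff_ne_empty.1 ⟨g, ?_⟩)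
    simp [hg]
  refine (LinearMap.finrank_le_finrank_of_injective hinj).trans ?_
  rw [Module.finrank_fintype_fun_eq_card, Nat.card_eq_fintype_card]

end CfsgLib.Blocks.NormalDefectThree
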