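import Cfsg.Agent.Blocks.NormalDefectThree.Linear
import Cfsg.Agent.Blocks.NormalDefectThree.RankLe
import Cfsg.Agent.Blocks.NormalDefectThree.Param
import Cfsg.Agent.Blocks.OneSimple.Small
import Cfsg.Agent.S0971
import Cfsg.Agent.S4437
import Cfsg.Agent.McKay.Good
import Cfsg.Agent.Blocks.Covering.FongReynolds
import Cfsg.Agent.Blocks.HeightZero.Covering

/-!
# A block with elementary abelian normal defect group and at most three characters

`false_of_card_le_three`: the defect group has order `p`.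
-/

set_option autoImplicit false
set_option linter.style.haveILetI false
open Cfsg CfsgLib CfsgLib.Blocks CfsgLib.Chars.Induced

namespace CfsgLib.Blocks.NormalDefectThree

universe u

section good

open CfsgLib.McKay

variable {T : Type u} [Group T] [Fintype T] {K : Subgroup T} [K.Normal] [Fintype K]

/-- An element whose centralizer modulo `K` is cyclic is good. -/
theorem goodElt_of_isCyclic_centralizer {θ : IrrCharacter K} (hθ : ∀ g : T, conjIrr g θ = θ)
    {x : T} (hx : IsCyclic (Subgroup.centralizer ({(x : T ⧸ K)} : Set (T ⧸ K)))) :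
    GoodElt θ x := by
  intro y hy
  set A := Subgroup.closure ({x, y} : Set T)
  set Ab := A.map (QuotientGroup.mk' K)
  have hle : Ab ≤ Subgroup.centralizer ({(x : T ⧸ K)} : Set (T ⧸ K)) := by
    rw [Subgroup.map_le_iff_le_comap, Subgroup.closure_le]
    rintro a (rfl | rfl)
    · exact Subgroup.mem_centralizer_singleton_iff.2 rfl
    · refine Subgroup.mem_centralizer_singleton_iff.2 ?_
      have h := (QuotientGroup.eq_one_iff (a * x * a⁻¹ * x⁻¹)).2 hy
      simp only [QuotientGroup.mk_mul, QuotientGroup.mk_inv] at h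
      show (a : T ⧸ K) * (x : T ⧸ K) = (x : T ⧸ K) * (a : T ⧸ K)
      exact mul_inv_eq_iff_eq_mul.1 (mul_inv_eq_one.1 h)
  haveI : IsCyclic Ab := (Subgroup.subgroupOfEquivOfLe hle).isCyclic.1 inferInstance
  obtain ⟨⟨q, hq⟩, hgen⟩ := IsCyclic.exists_generator (α := Ab)
  obtain ⟨g, hgA, rfl⟩ := hq
  have heq : K ⊔ A = K ⊔ Subgroup.zpowers g := by
    refine le_antisymm (sup_le le_sup_left fun a ha => ?_)
      (sup_le le_sup_left (le_sup_of_le_right (Subgroup.zpowers_le.2 hgA)))
    obtain ⟨i, hi⟩ := hgen ⟨_, a, ha, rfl⟩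
    have hi' : ((g ^ i : T) : T ⧸ K) = (a : T ⧸ K) := by
      rw [QuotientGroup.mk_zpow]; exact congrArg Subtype.val hi
    rw [← mul_inv_cancel_left (g ^ i) a]
    exact Subgroup.mul_mem _ (Subgroup.mem_sup_right ⟨i, rfl⟩)
      (Subgroup.mem_sup_left (QuotientGroup.eq.1 hi'))
  show ExtendsTo (K ⊔ A) θ
  rw [heq]
  exact extendsTo_zpowers θ hθ g

/-- At most two characters over `θ` leave one class of elements with cyclic centralizer. -/
theorem isConj_of_card_le_two {θ : IrrCharacter K} (hθ : ∀ g : T, conjIrr g θ = θ)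
    (hcard : Nat.card {χ : IrrCharacter T // CfsgLib.Glauberman.mult K.subtype χ θ ≠ 0} ≤ 2)
    {a c : T ⧸ K} (ha1 : a ≠ 1) (hc1 : c ≠ 1)
    (ha : IsCyclic (Subgroup.centralizer ({a} : Set (T ⧸ K))))
    (hc : IsCyclic (Subgroup.centralizer ({c} : Set (T ⧸ K)))) : IsConj a c := by
  classical
  rw [card_over_eq_card_good θ hθ] at hcard
  obtain ⟨x, rfl⟩ := QuotientGroup.mk_surjective a
  obtain ⟨y, rfl⟩ := QuotientGroup.mk_surjective c
  by_contra hne
  have h1 : GoodElt θ (1 : T) := by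
    intro z _
    have : K ⊔ Subgroup.closure {(1 : T), z} = K ⊔ Subgroup.zpowers z := by
      congr 1
      refine le_antisymm ((Subgroup.closure_le _).2 ?_) (Subgroup.zpowers_le.2
        (Subgroup.subset_closure (Or.inr rfl)))
      rintro w (rfl | rfl)
      · exact Subgroup.one_mem _
      · exact Subgroup.mem_zpowers w
    rw [this]
    exact extendsTo_zpowers θ hθ z
  let φ : Fin 3 → {c : ConjClasses (T ⧸ K) //
      ∃ w : T, ConjClasses.mk (w : T ⧸ K) = c ∧ GoodElt θ w} :=
    ![⟨_, 1, rfl, h1⟩, ⟨_, x, rfl, goodElt_of_isCyclic_centralizer hθ ha⟩,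
      ⟨_, y, rfl, goodElt_of_isCyclic_centralizer hθ hc⟩]
  have hinj : Function.Injective φ := by
    have e : ∀ {u v : T ⧸ K}, u ≠ 1 → ConjClasses.mk (1 : T ⧸ K) ≠ ConjClasses.mk u := fun {u} _ hu h =>
      hu (show (1 : T ⧸ K) = _ by simpa using ConjClasses.mk_eq_mk_iff_isConj.1 h).symm
    have exy : ConjClasses.mk (x : T ⧸ K) ≠ ConjClasses.mk (y : T ⧸ K) := fun h =>
      hne (ConjClasses.mk_eq_mk_iff_isConj.1 h)
    intro i j h
    have h' := congrArg Subtype.val h
    fin_cases i <;> fin_cases j <;> first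
      | rfl
      | exact absurd h' (by simpa [φ] using e ha1 (v := 1))
      | exact absurd h'.symm (by simpa [φ] using e ha1 (v := 1))
      | exact absurd h' (by simpa [φ] using e hc1 (v := 1))
      | exact absurd h'.symm (by simpa [φ] using e hc1 (v := 1))
      | exact absurd h' (by simpa [φ] using exy)
      | exact absurd h'.symm (by simpa [φ] using exy)
  have := Nat.card_le_card_of_injective φ hinj
  rw [Nat.card_fin] at this
  omega

/-- With exactly two characters over `θ` the index is a sum of two positive squares. -/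
theorem exists_sum_sq {θ : IrrCharacter K} (hθ : ∀ g : T, conjIrr g θ = θ)
    (hcard : Nat.card {χ : IrrCharacter T // CfsgLib.Glauberman.mult K.subtype χ θ ≠ 0} = 2) :
    ∃ a c : ℕ, 0 < a ∧ 0 < c ∧ K.index = a ^ 2 + c ^ 2 := by
  classical
  have hm : ∀ χ : IrrCharacter T, CfsgLib.Chars.Induced.mult (fun n : K => (χ : T → ℂ) n) θ =
      CfsgLib.Glauberman.mult K.subtype χ θ := fun χ => by
    have h := CfsgLib.Glauberman.NormalSylow.mult_eq_induced K.subtype χ θ
    simpa using h
  rw [← sum_mult_sq_of_invariant θ fun g => congrArg Subtype.val (hθ g)]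
  simp only [hm]
  rw [Nat.card_eq_fintype_card, Fintype.card_subtype, Finset.card_eq_two] at hcard
  obtain ⟨a, c, hac, hs⟩ := hcard
  have ha : a ∈ Finset.univ.filter fun χ : IrrCharacter T =>
      CfsgLib.Glauberman.mult K.subtype χ θ ≠ 0 := by rw [hs]; simp
  have hc : c ∈ Finset.univ.filter fun χ : IrrCharacter T =>
      CfsgLib.Glauberman.mult K.subtype χ θ ≠ 0 := by rw [hs]; simp
  refine ⟨_, _, Nat.pos_of_ne_zero (Finset.mem_filter.1 ha).2,
    Nat.pos_of_ne_zero (Finset.mem_filter.1 hc).2, ?_⟩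
  rw [← Finset.sum_filter_of_ne (p := fun χ : IrrCharacter T =>
    CfsgLib.Glauberman.mult K.subtype χ θ ≠ 0) (fun χ _ h h0 => h (by rw [h0]; rfl)), hs,
    Finset.sum_pair hac]

end good

section dual

variable {A B : Type*} [MulOneClass A] [CommGroup B] {p : ℕ} [Fact p.Prime]
  [Module (ZMod p) (Additive (A →* B))]

/-- Composition with an endomorphism, on the dual. -/
def dualEnd (f : A →* A) : Module.End (ZMod p) (Additive (A →* B)) :=
  (AddMonoidHom.mk' (fun w : Additive (A →* B) => Additive.ofMul (w.toMul.comp f))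
    fun _ _ => rfl).toZModLinearMap p

theorem dualEnd_apply (f : A →* A) (w : Additive (A →* B)) (v : A) :
    (dualEnd (p := p) f w).toMul v = w.toMul (f v) := rfl

theorem dualEnd_id : dualEnd (p := p) (B := B) (MonoidHom.id A) = 1 :=
  LinearMap.ext fun w => by rw [Module.End.one_apply]; rfl

theorem dualEnd_comp (f g : A →* A) :
    dualEnd (p := p) (B := B) (g.comp f) = dualEnd f * dualEnd g :=
  LinearMap.ext fun w => by rw [Module.End.mul_apply]; rfl

theorem dualEnd_eq_one_iff (f : A →* A) :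
    dualEnd (p := p) (B := B) f = 1 ↔ ∀ (w : A →* B) (v : A), w (f v) = w v := by
  constructor
  · intro h w v
    have h1 := dualEnd_apply (p := p) f (Additive.ofMul w) v
    rw [h, Module.End.one_apply] at h1
    exact h1.symm
  · intro h
    refine LinearMap.ext fun w => Additive.toMul.injective (MonoidHom.ext fun v => ?_)
    rw [dualEnd_apply, h, Module.End.one_apply]

/-- The action on the dual of a family of endomorphisms. -/
def dualHom {T : Type*} [Group T] (cj : T → (A →* A)) (h1 : cj 1 = MonoidHom.id A)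
    (hm : ∀ s t, cj (s * t) = (cj t).comp (cj s)) :
    T →* Module.End (ZMod p) (Additive (A →* B)) where
  toFun t := dualEnd (cj t)
  map_one' := by rw [h1]; exact dualEnd_id
  map_mul' s t := by rw [hm, dualEnd_comp]

theorem dualHom_eq_one_iff {T : Type*} [Group T] (cj : T → (A →* A))
    (h1 : cj 1 = MonoidHom.id A) (hm : ∀ s t, cj (s * t) = (cj t).comp (cj s)) (t : T) :
    dualHom (p := p) (B := B) cj h1 hm t = 1 ↔ ∀ (w : A →* B) (v : A), w (cj t v) = w v :=
  dualEnd_eq_one_iff (cj t)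

end dual

variable {G : Type u} [Group G] [Fintype G] {p : ℕ} [Fact p.Prime] {M : Ideal AlgInt}

/-- A block with elementary abelian normal defect group of order at least `p ^ 2` has more than
three characters. -/
theorem false_of_card_le_three (hM : IsPModular p M) (hp2 : p ≠ 2) {B : Set (IrrCharacter G)}
    (hB : IsPBlock M B) {V : Subgroup G} [V.Normal] (hV : IsDefectGroup p M B V)
    (hab : ∀ a ∈ V, ∀ c ∈ V, a * c = c * a) (hexp : ∀ v ∈ V, v ^ p = 1)
    (hbig : p ^ 2 ≤ Nat.card V) (hk : Nat.card B ≤ 3) : False := by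
  classical
  haveI := hM.2.1
  haveI := charP_kres hM
  have hp : p.Prime := Fact.out
  have hVp : IsPGroup p V := ((isDefectGroup_topEl_iff (M := M) hB V).1 hV).2.1
  set H := V ⊔ Subgroup.centralizer (V : Set G) with hH
  have hHC : H = Subgroup.centralizer (V : Set G) :=
    le_antisymm (sup_le (fun a ha => Subgroup.mem_centralizer_iff.2 fun c hc => hab c hc a ha)
      le_rfl) le_sup_right
  haveI : (Subgroup.centralizer (V : Set G)).Normal := Subgroup.normal_centralizer
  haveI : H.Normal := Subgroup.sup_normal _ _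
  haveI : Fintype H := Fintype.ofFinite H
  obtain ⟨χ₀, hχ₀⟩ := nonempty_of_isPBlock hB
  obtain ⟨η₀, hη₀⟩ := BlocksCover.exists_constituent χ₀ H
  set b := Cfsg.blockOf M (η₀ : H → ℂ) with hb'
  have hb : IsPBlock M b := ⟨η₀, rfl⟩
  have hη₀b : η₀ ∈ b := self_mem_blockOf η₀
  have hindall : ∀ B' : Set (IrrCharacter G), IsPBlock M B' →
      (∃ χ ∈ B', ∃ θ ∈ b, classInner (fun n : H => (χ : G → ℂ) n) (θ : H → ℂ) ≠ 0) →
      IsInducedBlock M H b B' := (Cfsg.Agent.S0971.result p M hM V hVp b hb).2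
  have hind : IsInducedBlock M H b B := hindall B hB ⟨χ₀, hχ₀, η₀, hη₀b, hη₀⟩
  have hVH : V ≤ H := le_sup_left
  have hbP : IsDefectGroup p M b (V.subgroupOf H) := by
    obtain ⟨Q, hQ⟩ := (isBlockIdem_subEl hb (M := M)).exists_defectGroup p
    obtain ⟨P', hP', hinf⟩ := exists_defectGroup_inf_eq (isBlockIdem_topEl hB)
      (isBlockIdem_subEl hb) hQ (topEl_mul_subEl_ne_zero hB hb hχ₀ hη₀b hη₀)
    have hP'eq : P' = V := by
      obtain ⟨x, hx⟩ := HeightZero.defectGroup_conj_eq hM hB hV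
        ((isDefectGroup_topEl_iff hB P').2 hP')
      rw [← hx, map_conj_eq_self_of_mem_normalizer
        ((Subgroup.normalizer_eq_top_iff.mpr (inferInstance : V.Normal)).ge (Subgroup.mem_top x))]
    rw [hP'eq, inf_eq_left.2 hVH] at hinf
    rw [isDefectGroup_subEl_iff hb, Subgroup.map_subgroupOf_eq_of_le hVH, hinf]
    exact hQ
  set T := (HeightZero.blockStab b : Subgroup G) with hT
  haveI : Fintype T := Fintype.ofFinite T
  have hHT : H ≤ T := fun x hx θ => by
    rw [show conjIrr x θ = θ from Subtype.ext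
      (conjFun_of_mem (Chars.isClassFunction_coe θ) hx)]
  have hndvd : ¬ p ∣ H.relIndex T := by
    refine (Cfsg.Agent.S4437.result p M hM V hVp H rfl b hb hbP B hind T fun g => ?_).mp hV
    have key : ∀ θ θ' : IrrCharacter H,
        (∀ h h' : H, (h' : G) = g * h * g⁻¹ → (θ' : H → ℂ) h' = (θ : H → ℂ) h) ↔
          θ' = conjIrr g θ := by
      intro θ θ'
      constructor
      · intro h
        refine Subtype.ext (funext fun n => ?_)
        rw [conjIrr_coe, conjFun_apply]
        exact h _ n (by simp [mul_assoc])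
      · rintro rfl h h' hh
        rw [conjIrr_coe, conjFun_apply]
        exact congrArg (θ : H → ℂ) (Subtype.ext (by simp [hh, mul_assoc]))
    constructor
    · intro hg
      refine ⟨(Subgroup.normalizer_eq_top_iff.mpr (inferInstance : V.Normal)).ge
        (Subgroup.mem_top g), fun θ hθ θ' h => ?_⟩
      rw [(key θ θ').1 h]
      exact (hg θ).2 hθ
    · rintro ⟨-, hg⟩
      exact HeightZero.mem_blockStab_of_conj_mem hb hη₀b
        (hg η₀ hη₀b _ ((key η₀ _).2 rfl))
  -- the central characters of the members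
  have hcen : V.subgroupOf H ≤ Subgroup.center H := fun v hv => Subgroup.mem_center_iff.2 fun h =>
    Subtype.ext (Subgroup.mem_centralizer_iff.1 (hHC.le h.2) v hv).symm
  obtain ⟨lam, hlam, hlamsurj, hlaminj⟩ := exists_lam hM hb hbP hcen
  let e : V.subgroupOf H ≃* V := Subgroup.subgroupOfEquivOfLe hVH
  obtain ⟨θ, hθb, hθ1⟩ := hlamsurj 1
  have hlamconj : ∀ (t : G) (φ : IrrCharacter H) (v : V.subgroupOf H),
      (lam (conjIrr t φ) v : ℂ) = lam φ ⟨⟨t⁻¹ * ((v : H) : G) * t, hVH (by
        simpa using ‹V.Normal›.conj_mem _ v.2 t⁻¹)⟩, by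
          show t⁻¹ * ((v : H) : G) * t ∈ V
          simpa using ‹V.Normal›.conj_mem _ v.2 t⁻¹⟩ := by
    intro t φ v
    have h1 := hlam (conjIrr t φ) v 1
    rw [mul_one, conjIrr_coe, conjFun_apply, conjFun_apply] at h1
    have h2 := hlam φ ⟨⟨t⁻¹ * ((v : H) : G) * t, hVH (by
        simpa using ‹V.Normal›.conj_mem _ v.2 t⁻¹)⟩, by
          show t⁻¹ * ((v : H) : G) * t ∈ V
          simpa using ‹V.Normal›.conj_mem _ v.2 t⁻¹⟩ 1
    have h3 := h1.symm.trans ((congrArg (φ : H → ℂ) (Subtype.ext (by simp))).trans h2)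
    have h4 : (φ : H → ℂ) ⟨t⁻¹ * ((1 : H) : G) * t, by simp⟩ = (φ : H → ℂ) 1 :=
      congrArg (φ : H → ℂ) (Subtype.ext (by simp))
    rw [h4] at h3
    exact mul_right_cancel₀ (Chars.map_one_ne_zero φ) h3
  have hfix : ∀ t ∈ T, conjIrr t θ = θ := fun t ht => hlaminj ((ht θ).2 hθb) hθb (by
    rw [hθ1]
    refine MonoidHom.ext fun v => Units.ext ?_
    rw [hlamconj, hθ1]
    simp)
  have hinert : inertia H (θ : H → ℂ) ≤ T :=
    FongReynolds.inertia_le hb le_rfl hθb
  -- the members of `B` over `θ` are those with `V` in the kernel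
  have hkerlam : ∀ (χ : IrrCharacter G) (η : IrrCharacter H),
      V ≤ Chars.charKer (χ : G → ℂ) →
      classInner (fun n : H => (χ : G → ℂ) n) (η : H → ℂ) ≠ 0 → lam η = 1 := by
    intro χ η hker hne
    refine MonoidHom.ext fun v => Units.ext ?_
    simp only [classInner] at hne
    have hne' := right_ne_zero_of_mul hne
    have hv : ∀ x : G, (χ : G → ℂ) (((v : H) : G) * x) = (χ : G → ℂ) x := fun x =>
      Chars.mem_charKer.1 (hker v.2) x
    have h : ∑ n : H, (χ : G → ℂ) n * (starRingEnd ℂ) ((η : H → ℂ) n) =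
        (starRingEnd ℂ) (lam η v : ℂ) *
          ∑ n : H, (χ : G → ℂ) n * (starRingEnd ℂ) ((η : H → ℂ) n) := by
      rw [Finset.mul_sum]
      refine (Fintype.sum_equiv (Equiv.mulLeft (v : H)) _ _ fun n => ?_).symm
      show _ = (χ : G → ℂ) (((v : H) : G) * (n : G)) * _
      rw [Equiv.coe_mulLeft, hv, hlam, map_mul]
      ring
    have h1 : (starRingEnd ℂ) (lam η v : ℂ) = 1 :=
      (mul_left_eq_self₀.1 h.symm).resolve_right hne'
    simpa using congrArg (starRingEnd ℂ) h1
  have hover_ker : ∀ χ : IrrCharacter G,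
      classInner (fun n : H => (χ : G → ℂ) n) (θ : H → ℂ) ≠ 0 →
        V ≤ Chars.charKer (χ : G → ℂ) := by
    intro χ hne
    by_contra hnot
    haveI : Fintype V := Fintype.ofFinite V
    refine hne ?_
    simp only [classInner]
    refine mul_eq_zero_of_right _ ?_
    have hθv : ∀ (u : V) (n : H), (θ : H → ℂ) (⟨(u : G), hVH u.2⟩ * n) = (θ : H → ℂ) n :=
      fun u n => by
      rw [hlam θ ⟨⟨(u : G), hVH u.2⟩, u.2⟩ n, hθ1]; simp
    have hVn : ∀ (u : V) (n : H), ((⟨(u : G), hVH u.2⟩ : H) : G) * (n : G) = (n : G) * u :=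
      fun u n => Subgroup.mem_centralizer_iff.1 (hHC.le n.2) u u.2
    have h : (Nat.card V : ℂ) * ∑ n : H, (χ : G → ℂ) n * (starRingEnd ℂ) ((θ : H → ℂ) n) = 0 := by
      calc (Nat.card V : ℂ) * ∑ n : H, (χ : G → ℂ) n * (starRingEnd ℂ) ((θ : H → ℂ) n)
          = ∑ u : V, ∑ n : H, (χ : G → ℂ) n * (starRingEnd ℂ) ((θ : H → ℂ) n) := by
            rw [Finset.sum_const, Finset.card_univ, nsmul_eq_mul, Nat.card_eq_fintype_card]
        _ = ∑ u : V, ∑ n : H, (χ : G → ℂ) ((n : G) * u) * (starRingEnd ℂ) ((θ : H → ℂ) n) := by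
            refine Finset.sum_congr rfl fun u _ => ?_
            refine (Fintype.sum_equiv (Equiv.mulLeft (⟨(u : G), hVH u.2⟩ : H)) _ _ fun n => ?_).symm
            rw [Equiv.coe_mulLeft, hθv, Subgroup.coe_mul, hVn]
        _ = 0 := by
            rw [Finset.sum_comm]
            refine Finset.sum_eq_zero fun n _ => ?_
            rw [← Finset.sum_mul, Chars.sum_coset_eq_zero V χ hnot, zero_mul]
    exact (mul_eq_zero.1 h).resolve_left (Nat.cast_ne_zero.2 Nat.card_pos.ne')
  have hoverB : ∀ χ : IrrCharacter G, ∀ η ∈ b,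
      classInner (fun n : H => (χ : G → ℂ) n) (η : H → ℂ) ≠ 0 → χ ∈ B := by
    intro χ η hη hne
    have h1 := hindall (Cfsg.blockOf M (χ : G → ℂ)) ⟨χ, rfl⟩
      ⟨χ, self_mem_blockOf χ, η, hη, hne⟩
    rw [← isInducedBlock_unique hM h1 hind]
    exact self_mem_blockOf χ
  have hbelow : ∀ χ ∈ B, ∃ η ∈ b, classInner (fun n : H => (χ : G → ℂ) n) (η : H → ℂ) ≠ 0 := by
    intro χ hχ
    obtain ⟨η, hη⟩ := BlocksCover.exists_constituent χ H
    have h0 := (BlocksCover.constituent_iff_centralChar χ₀ η₀).1 hη₀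
    have h1 := (BlocksCover.constituent_iff_centralChar χ η).1 hη
    obtain ⟨x, hx⟩ := BlocksCover.exists_sameBlock_conj (θ := η₀) (ψ := η) fun n => by
      rw [← h0 n, ← h1 n]
      exact sameBlock_of_mem hB hχ₀ hχ _
    refine ⟨_, mem_of_sameBlock hb hη₀b hx, ?_⟩
    rw [BlocksCover.mult_ne_zero_iff, mult_restrict_conjIrr (Chars.isClassFunction_coe χ),
      ← BlocksCover.mult_ne_zero_iff]
    exact hη
  let Ker := {χ : IrrCharacter G // χ ∈ B ∧ V ≤ Chars.charKer (χ : G → ℂ)}
  have hkθ : ∀ χ : Ker, classInner (fun n : H => (χ.1 : G → ℂ) n) (θ : H → ℂ) ≠ 0 := by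
    intro χ
    obtain ⟨η, hη, hne⟩ := hbelow χ.1 χ.2.1
    rwa [← hlaminj hη hθb ((hkerlam χ.1 η χ.2.2 hne).trans hθ1.symm)]
  -- the characters of `T` over `θ`
  set K := H.subgroupOf T
  haveI : Fintype K := Fintype.ofFinite K
  set θT := FongReynolds.liftIrr hHT θ with hθT
  have hθTinv : ∀ g : T, conjIrr g θT = θT := fun g => by
    rw [hθT, FongReynolds.conjIrr_liftIrr, hfix g g.2]
  let Ov := {ψ : IrrCharacter T // CfsgLib.Glauberman.mult K.subtype ψ θT ≠ 0}
  have hOv : ∀ ψ : IrrCharacter T, CfsgLib.Glauberman.mult K.subtype ψ θT ≠ 0 ↔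
      FongReynolds.multOn hHT ψ θ ≠ 0 := fun ψ => by
    rw [← FongReynolds.mult_liftIrr]
    have h := CfsgLib.Glauberman.NormalSylow.mult_eq_induced K.subtype ψ θT
    rw [← h]
    rfl
  have hequiv : Nat.card Ov = Nat.card Ker := by
    have hup : ∀ ψ : Ov, ∃ χ : Ker, (χ.1 : G → ℂ) = indFun T (ψ.1 : T → ℂ) := by
      rintro ⟨ψ, hψ⟩
      rw [hOv] at hψ
      let χ : IrrCharacter G := ⟨_, FongReynolds.isIrrCharacter_indFun hinert hψ⟩
      have hm : mult (indFun T (ψ : T → ℂ)) χ = 1 := by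
        rw [show indFun T (ψ : T → ℂ) = (χ : G → ℂ) from rfl, mult_irr, if_pos rfl]
      have h2 := (FongReynolds.indFun_eq_of_inertia_le hinert ψ hψ χ (by omega)).2
      have hne : classInner (fun n : H => (χ : G → ℂ) n) (θ : H → ℂ) ≠ 0 := by
        rw [BlocksCover.mult_ne_zero_iff, h2]; exact hψ
      exact ⟨⟨χ, hoverB χ θ hθb hne, hover_ker χ hne⟩, rfl⟩
    choose F hF using hup
    refine Nat.card_congr (Equiv.ofBijective F ⟨fun a c h => ?_, fun χ => ?_⟩)
    · refine Subtype.ext (FongReynolds.indFun_injective hinert ((hOv _).1 a.2) ((hOv _).1 c.2) ?_)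
      rw [← hF, ← hF, h]
    · obtain ⟨ψ, hψ, hψχ⟩ := FongReynolds.exists_indFun_eq hinert hHT χ.1
        ((BlocksCover.mult_ne_zero_iff _ _).1 (hkθ χ))
      refine ⟨⟨ψ, (hOv ψ).2 hψ⟩, Subtype.ext (Subtype.ext ?_)⟩
      rw [hF]; exact hψχ
  -- members outside the kernel
  haveI : Finite B := B.toFinite.to_subtype
  let j : Ker → B := fun χ => ⟨χ.1, χ.2.1⟩
  have hjinj : Function.Injective j := fun a c h => Subtype.ext (congrArg (fun q : B => q.1) h)
  obtain ⟨d, hd⟩ := IsPGroup.iff_card.1 hVp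
  have hW : 2 ≤ d := by
    by_contra h
    have h1 : p ^ d < p ^ 2 := Nat.pow_lt_pow_right hp.one_lt (by omega)
    omega
  have hout : ∀ η ∈ b, η ≠ θ → ∃ χ : B, χ ∉ Set.range j ∧
      classInner (fun n : H => (χ.1 : G → ℂ) n) (η : H → ℂ) ≠ 0 := by
    intro η hη hne
    obtain ⟨χ, hχ, hc⟩ := HeightZero.exists_over_of_covers hM hB hb hχ₀ hη₀b hη₀ hη
    refine ⟨⟨χ, hχ⟩, ?_, hc⟩
    rintro ⟨⟨χ', hχ'B, hker⟩, hj⟩
    obtain rfl : χ' = χ := congrArg Subtype.val hj
    exact hne (hlaminj hη hθb ((hkerlam χ' η hker hc).trans hθ1.symm))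
  have hVcard : Nat.card (V.subgroupOf H →* ℂˣ) = p ^ d := by
    haveI : IsMulCommutative (V.subgroupOf H) :=
      ⟨⟨fun a c => Subtype.ext (Subgroup.mem_center_iff.1 (hcen c.2) a)⟩⟩
    rw [Chars.card_monoidHom_units, (commutator_eq_bot_iff_center_eq_top (G := V.subgroupOf H)).2
      (Subgroup.center_eq_top_iff.2 inferInstance), Subgroup.index_bot, Nat.card_congr e.toEquiv, hd]
  obtain ⟨η₁, hη₁, hη₁θ⟩ : ∃ η ∈ b, η ≠ θ := by
    have h1 : (1 : ℕ) < Nat.card (V.subgroupOf H →* ℂˣ) := by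
      rw [hVcard]; exact Nat.one_lt_pow (by omega) hp.one_lt
    haveI : Nontrivial (V.subgroupOf H →* ℂˣ) := Finite.one_lt_card_iff_nontrivial.1 h1
    obtain ⟨w, hw⟩ := exists_ne (1 : V.subgroupOf H →* ℂˣ)
    obtain ⟨η, hη, rfl⟩ := hlamsurj w
    exact ⟨η, hη, fun h => hw (by rw [h, hθ1])⟩
  obtain ⟨χ₁, hχ₁, hχ₁c⟩ := hout η₁ hη₁ hη₁θ
  haveI : Fintype Ker := Fintype.ofFinite _
  haveI : Fintype B := Fintype.ofFinite _
  have hlt : Nat.card Ker < Nat.card B := by
    rw [Nat.card_eq_fintype_card, Nat.card_eq_fintype_card]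
    exact Fintype.card_lt_of_injective_of_notMem j hjinj hχ₁
  by_cases h1 : Nat.card Ker ≤ 1
  · have hl : blockRank p B = 1 := le_antisymm
      ((blockRank_le_card_ker hM hab hexp hB).trans h1) (CyclicInertia.blockRank_pos hM hB)
    have := OneSimple.pow_defect_eq_card hM hB hV hl (by omega)
    rw [Contrib.natCard_defectGroup hM hB hV, this] at hbig
    have : 3 ^ 2 ≤ p ^ 2 := Nat.pow_le_pow_left (by have := hp.two_le; omega) 2
    omega
  have hKer : Nat.card Ker = 2 := by omega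
  have hBcard : Nat.card B = 3 := by omega
  have huniq : ∀ χ : B, χ ∉ Set.range j → χ = χ₁ := by
    intro χ hχ
    by_contra hne
    let j' : Ker ⊕ Fin 2 → B := Sum.elim j ![χ, χ₁]
    have hj' : Function.Injective j' := by
      refine Function.Injective.sumElim hjinj ?_ ?_
      · intro a c h
        fin_cases a <;> fin_cases c <;> first | rfl | exact absurd h hne | exact absurd h.symm hne
      · intro a c h
        fin_cases c
        · exact hχ ⟨a, h⟩
        · exact hχ₁ ⟨a, h⟩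
    have := Nat.card_le_card_of_injective j' hj'
    rw [Nat.card_sum, Nat.card_fin] at this
    omega
  -- the linear group
  haveI : Finite (Additive (V.subgroupOf H →* ℂˣ)) := inferInstanceAs (Finite (V.subgroupOf H →* ℂˣ))
  have hzero : ∀ w : Additive (V.subgroupOf H →* ℂˣ), p • w = 0 := fun w => by
    refine (Additive.toMul (α := V.subgroupOf H →* ℂˣ)).injective (MonoidHom.ext fun v => ?_)
    show (w.toMul ^ p) v = (1 : V.subgroupOf H →* ℂˣ) v
    rw [MonoidHom.pow_apply, ← map_pow, show v ^ p = 1 from Subtype.ext (Subtype.ext (hexp _ v.2)),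
      map_one, MonoidHom.one_apply]
  letI : Module (ZMod p) (Additive (V.subgroupOf H →* ℂˣ)) :=
    AddCommGroup.zmodModule (n := p) (G := Additive (V.subgroupOf H →* ℂˣ)) hzero
  let cj : T → (V.subgroupOf H →* V.subgroupOf H) := fun t =>
    { toFun := fun v => ⟨⟨(t : G)⁻¹ * ((v : H) : G) * (t : G), hVH (by
          simpa using ‹V.Normal›.conj_mem _ v.2 (t : G)⁻¹)⟩, by
        show (t : G)⁻¹ * ((v : H) : G) * (t : G) ∈ V
        simpa using ‹V.Normal›.conj_mem _ v.2 (t : G)⁻¹⟩
      map_one' := Subtype.ext (Subtype.ext (by simp))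
      map_mul' := fun a c => Subtype.ext (Subtype.ext (by simp; group)) }
  have hcj1 : cj 1 = MonoidHom.id _ := MonoidHom.ext fun v => Subtype.ext (Subtype.ext (by
    show ((1 : T) : G)⁻¹ * ((v : H) : G) * ((1 : T) : G) = ((v : H) : G)
    simp))
  have hcjm : ∀ s t, cj (s * t) = (cj t).comp (cj s) := fun s t =>
    MonoidHom.ext fun v => Subtype.ext (Subtype.ext (by
      show ((s * t : T) : G)⁻¹ * ((v : H) : G) * ((s * t : T) : G) =
        (t : G)⁻¹ * ((s : G)⁻¹ * ((v : H) : G) * (s : G)) * (t : G)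
      simp only [Subgroup.coe_mul]
      group))
  let act := dualHom (p := p) (B := ℂˣ) cj hcj1 hcjm
  have hker : ∀ t : T, act t = 1 ↔ t ∈ K := by
    intro t
    show act t = 1 ↔ (t : G) ∈ H
    rw [dualHom_eq_one_iff, show ((t : G) ∈ H ↔ ∀ u ∈ (V : Set G), u * (t : G) = (t : G) * u) from
      (SetLike.ext_iff.1 hHC (t : G)).trans Subgroup.mem_centralizer_iff]
    constructor
    · intro h u hu
      let v : V.subgroupOf H := ⟨⟨u, hVH hu⟩, hu⟩
      by_contra hne
      have hvne : cj t v * v⁻¹ ≠ 1 := by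
        intro h'
        have h'' := congrArg (fun q : V.subgroupOf H => ((q : H) : G)) (mul_inv_eq_one.1 h')
        change (t : G)⁻¹ * u * (t : G) = u at h''
        refine hne ?_
        calc u * (t : G) = (t : G) * ((t : G)⁻¹ * u * (t : G)) := by group
          _ = (t : G) * u := by rw [h'']
      letI : CommGroup (V.subgroupOf H) := { (inferInstance : Group _) with
        mul_comm := fun a c => Subtype.ext (Subgroup.mem_center_iff.1 (hcen c.2) a) }
      haveI : NeZero (Monoid.exponent (V.subgroupOf H) : ℂ) :=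
        ⟨Nat.cast_ne_zero.mpr Monoid.ExponentExists.of_finite.exponent_ne_zero⟩
      obtain ⟨w, hw⟩ := CommGroup.exists_apply_ne_one_of_hasEnoughRootsOfUnity
        (V.subgroupOf H) ℂ hvne
      refine hw ?_
      rw [map_mul, map_inv, mul_inv_eq_one]
      exact h w v
    · intro h w v
      refine congrArg w (Subtype.ext (Subtype.ext ?_))
      show (t : G)⁻¹ * ((v : H) : G) * (t : G) = ((v : H) : G)
      rw [mul_assoc, show ((v : H) : G) * (t : G) = (t : G) * ((v : H) : G) from h _ v.2,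
        inv_mul_cancel_left]
  let ρ : Representation (ZMod p) (T ⧸ K) (Additive (V.subgroupOf H →* ℂˣ)) :=
    QuotientGroup.lift K act fun t ht => (hker t).2 ht
  have hρ : Function.Injective ρ := by
    intro a c h
    obtain ⟨s, rfl⟩ := QuotientGroup.mk_surjective a
    obtain ⟨t, rfl⟩ := QuotientGroup.mk_surjective c
    rw [QuotientGroup.eq, ← hker, map_mul]
    rw [show act t = act s from h.symm, ← map_mul, inv_mul_cancel, map_one]
  have htr : ∀ u v : (Additive (V.subgroupOf H →* ℂˣ)), u ≠ 0 → v ≠ 0 → ∃ g : T ⧸ K, ρ g u = v := by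
    intro u v hu hv
    obtain ⟨ηu, hηu, hlu⟩ := hlamsurj ((Additive.toMul (α := V.subgroupOf H →* ℂˣ)) u)
    obtain ⟨ηv, hηv, hlv⟩ := hlamsurj ((Additive.toMul (α := V.subgroupOf H →* ℂˣ)) v)
    have hne : ∀ {η : IrrCharacter H} {w : (Additive (V.subgroupOf H →* ℂˣ))}, w ≠ 0 → lam η = (Additive.toMul (α := V.subgroupOf H →* ℂˣ)) w → η ≠ θ :=
      fun {η w} hw he h => hw ((Additive.toMul (α := V.subgroupOf H →* ℂˣ)).injective (by rw [← he, h, hθ1]; rfl))
    obtain ⟨χu, hχu, hcu⟩ := hout ηu hηu (hne hu hlu)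
    obtain ⟨χv, hχv, hcv⟩ := hout ηv hηv (hne hv hlv)
    rw [huniq χu hχu] at hcu
    rw [huniq χv hχv] at hcv
    obtain ⟨x, hx⟩ := mem_conjOrbit_of_mult_ne_zero χ₁.1 ηu ηv
      ((BlocksCover.mult_ne_zero_iff _ _).1 hcu) ((BlocksCover.mult_ne_zero_iff _ _).1 hcv)
    have hx' : conjIrr x ηu = ηv := hx
    have hxT : x ∈ T := HeightZero.mem_blockStab_of_conj_mem hb hηu (hx'.symm ▸ hηv)
    refine ⟨((⟨x, hxT⟩ : T) : T ⧸ K), (Additive.toMul (α := V.subgroupOf H →* ℂˣ)).injective (MonoidHom.ext fun w => ?_)⟩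
    rw [← hlv, ← hx']
    refine Units.ext ?_
    rw [hlamconj]
    simp only [hlu]
    rfl
  have hE : ¬ p ∣ Nat.card (T ⧸ K) := hndvd
  have hdim : 2 ≤ Module.finrank (ZMod p) (Additive (V.subgroupOf H →* ℂˣ)) := by
    by_contra h
    have h1 := Module.natCard_eq_pow_finrank (K := ZMod p) (V := (Additive (V.subgroupOf H →* ℂˣ)))
    rw [Nat.card_zmod, show Nat.card (Additive (V.subgroupOf H →* ℂˣ)) = p ^ d from hVcard] at h1
    have := Nat.pow_right_injective hp.two_le h1
    omega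
  exact false_of_transitive ρ hρ hp2 hE htr
    (fun a c ha hc hca hcc => isConj_of_card_le_two hθTinv (hequiv.trans hKer).le ha hc hca hcc)
    (exists_sum_sq hθTinv (hequiv.trans hKer)) hdim

end CfsgLib.Blocks.NormalDefectThree
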